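import Cfsg.Agent.H92.Direct

/-!
# Groups whose class sizes have at most two prime divisors: definitions

Project CS47 (S4147).  Definitions and interface propositions only.
-/

set_option autoImplicit false

namespace Cfsg.Agent.H72.CS

open Cfsg.Agent.H92

universe u

/-- Every class size has at most two prime divisors. -/
def H2 (G : Type u) [Group G] : Prop := ∀ x : G, (cs[x]).primeFactors.card ≤ 2

/-- What is used about the two simple groups. -/
structure Good (S : Type u) [Group S] : Prop where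
  simple : IsSimpleGroup S
  h2 : H2 S
  card : Nat.card S = 60 ∨ Nat.card S = 504
  ab : ∀ (r : ℕ), r.Prime → ∀ R : Subgroup S, IsPGroup r R → ∀ x ∈ R, ∀ y ∈ R, Commute x y
  cen : ∀ (r : ℕ), r.Prime → ∀ x : S, x ≠ 1 → (∃ k, orderOf x = r ^ k) → IsPGroup r Ce[x]

/-- **SIMPLE** -/
def SimpleStmt : Prop :=
  ∀ (G : Type u) [Group G] [Finite G] [IsSimpleGroup G], ¬ IsMulCommutative G → H2 G → Good G

/-- **CH**: the principal `p`-block when the automizer of `P` has order two. -/
def ChStmt : Prop :=
  ∀ (G : Type u) [Group G] [Finite G] [IsSimpleGroup G], ¬ IsMulCommutative G →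
    ∀ (p q : ℕ) [Fact p.Prime] [Fact q.Prime], p ≠ 2 → q ≠ 2 → p ≠ q →
    (∀ r : ℕ, r.Prime → r ∣ Nat.card G → r = 2 ∨ r = p ∨ r = q) →
    ∀ (P : Sylow p G) (Q : Sylow q G), IsMulCommutative P → IsMulCommutative Q →
    (Subgroup.centralizer ((P : Subgroup G) : Set G)).relIndex
      (Subgroup.normalizer ((P : Subgroup G) : Set G)) = 2 →
    1 < Nat.card Q → Nat.card Q < Nat.card P →
    Subgroup.centralizer ((P : Subgroup G) : Set G) = P ∧
      ∃ i : ℕ, Nat.card P = 2 ^ i + 1 ∧ Nat.card Q + 1 = 2 ^ i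

/-- **FIN**: a good normal subgroup is a direct factor, complemented by the centre. -/
def FinStmt : Prop :=
  ∀ (G : Type u) [Group G] [Finite G], H2 G → ∀ S : Subgroup G, S.Normal → Good S →
    Subgroup.center G ⊓ S = ⊥ ∧ Subgroup.center G ⊔ S = ⊤

/-- **EX**: a nonsolvable group has a good normal subgroup. -/
def ExStmt : Prop :=
  ∀ (G : Type u) [Group G] [Finite G], H2 G → ¬ Group.IsSolvable G →
    ∃ S : Subgroup G, S.Normal ∧ Good S

end Cfsg.Agent.H72.CS
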