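import Cfsg.Agent.H42.FvDefs

/-! # Project FV, piece PLACE: a place specialising independent elements -/

set_option autoImplicit false

namespace Cfsg.Agent.H72.FvPlace

theorem place' {k E : Type} [Field k] [IsAlgClosed k] [Field E] [Algebra k E] {σ : Type}
    [Finite σ] {v : σ → E} (hv : AlgebraicIndependent k v) (w : σ → k) :
    ∃ O : ValuationSubring E, ∀ S : List E, (∀ s ∈ S, s ∈ O) →
      ∃ (A : Subalgebra k E) (ψ : A →ₐ[k] k), (∀ s ∈ S, s ∈ A) ∧
        ∀ i, ∃ h : v i ∈ A, ψ ⟨v i, h⟩ = w i := by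
  let φ : Algebra.adjoin k (Set.range v) →ₐ[k] k :=
    (MvPolynomial.aeval w).comp hv.aevalEquiv.symm.toAlgHom
  let φ' : (Algebra.adjoin k (Set.range v)).toSubring →+* k := φ.toRingHom
  obtain ⟨O, h1, h2⟩ := (RingHom.ker φ').image_subset_nonunits_valuationSubring
    (RingHom.ker_ne_top φ')
  have hm : ∀ i, v i ∈ Algebra.adjoin k (Set.range v) := fun i => Algebra.subset_adjoin ⟨i, rfl⟩
  have h3 : ∀ i, v i - algebraMap k E (w i) ∈ O.nonunits := fun i => by
    refine h2 ⟨⟨_, sub_mem (hm i) ((Algebra.adjoin k (Set.range v)).algebraMap_mem (w i))⟩, ?_, rfl⟩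
    change φ (⟨v i, hm i⟩ - algebraMap k _ (w i)) = 0
    have : hv.aevalEquiv (MvPolynomial.X i) = ⟨v i, hm i⟩ :=
      Subtype.ext ((hv.algebraMap_aevalEquiv _).trans (MvPolynomial.aeval_X _ _))
    rw [map_sub, AlgHom.commutes, ← this]
    simp [φ]
  refine ⟨O, fun S hS => ?_⟩
  let O' : Subalgebra k E := { O.toSubring with
    algebraMap_mem' := fun r => h1 ((Algebra.adjoin k (Set.range v)).algebraMap_mem r) }
  let A := Algebra.adjoin k (Set.range v ∪ {s | s ∈ S})
  have hA : A ≤ O' := Algebra.adjoin_le (by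
    rintro _ (⟨i, rfl⟩ | h)
    exacts [h1 (hm i), hS _ h])
  let ι : A →+* O := A.val.toRingHom.codRestrict O fun a => hA a.2
  obtain ⟨M, hM, le⟩ := ((IsLocalRing.maximalIdeal O).comap ι).exists_le_maximal
    (Ideal.comap_ne_top _ (IsLocalRing.maximalIdeal.isMaximal O).ne_top)
  haveI : Algebra.FiniteType k A :=
    Algebra.FiniteType.adjoin_of_finite ((Set.finite_range v).union (List.finite_toSet S))
  letI := Ideal.Quotient.field M
  haveI := finite_of_finite_type_of_isJacobsonRing k (A ⧸ M)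
  let e := AlgEquiv.ofBijective (Algebra.ofId k (A ⧸ M))
    (IsAlgClosed.algebraMap_bijective_of_isIntegral (k := k))
  refine ⟨A, e.symm.toAlgHom.comp (Ideal.Quotient.mkₐ k M),
    fun s hs => Algebra.subset_adjoin (Or.inr hs),
    fun i => ⟨Algebra.subset_adjoin (Or.inl ⟨i, rfl⟩), e.symm_apply_eq.2 ?_⟩⟩
  exact Ideal.Quotient.eq.2 (le (O.coe_mem_nonunits_iff.1 (h3 i)))

theorem place : H42.Fv.PlaceStmt := fun _ _ _ _ _ _ hv w => place' hv w

end Cfsg.Agent.H72.FvPlace
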