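import Cfsg.Agent.H98.GbH
import Cfsg.Agent.Eqn.Cfsg_Agent_H98_GB_pm

/-! Project GB: orthogonality of the monomials in a family of primitive elements. -/

set_option autoImplicit false
open Cfsg Finset

namespace Cfsg.Agent.H72.GbMorth

open Cfsg.Agent.H98.GB

universe u

section fac
variable {ι : Type} [DecidableEq ι]

/-- the product of the factorials of the multiplicities -/
noncomputable def fac (t : Multiset ι) : ℂ := ∏ i ∈ t.toFinset, ((t.count i).factorial : ℂ)

theorem fac_eq (t : Multiset ι) {S : Finset ι} (h : t.toFinset ⊆ S) :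
    fac t = ∏ i ∈ S, ((t.count i).factorial : ℂ) :=
  prod_subset h fun i _ hi => by
    rw [Multiset.count_eq_zero.2 (mt Multiset.mem_toFinset.2 hi), Nat.factorial_zero, Nat.cast_one]

theorem fac_cons (i : ι) (t : Multiset ι) : fac (i ::ₘ t) = ((i ::ₘ t).count i : ℂ) * fac t := by
  have hi : i ∈ (i ::ₘ t).toFinset := Multiset.mem_toFinset.2 (Multiset.mem_cons_self _ _)
  rw [fac_eq t (S := (i ::ₘ t).toFinset)
    (fun j hj => Multiset.mem_toFinset.2 (Multiset.mem_cons_of_mem (Multiset.mem_toFinset.1 hj))),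
    fac, ← mul_prod_erase _ _ hi, ← mul_prod_erase _ _ hi, ← mul_assoc, Multiset.count_cons_self,
    Nat.factorial_succ, Nat.cast_mul]
  congr 1
  exact prod_congr rfl fun j hj => by rw [Multiset.count_cons_of_ne (ne_of_mem_erase hj)]

theorem pm_diag (G : ι → ι → ℂ) (g : ι → ℂ) (J : Set ι)
    (h : ∀ i ∈ J, ∀ j ∈ J, G i j = if i = j then g i else 0) (s : List ι) :
    ∀ t : Multiset ι, (∀ i ∈ s, i ∈ J) → (∀ i ∈ t, i ∈ J) →
      pm G s t = if (s : Multiset ι) = t then (t.map g).prod * fac t else 0 := by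
  induction s with
  | nil =>
    intro t _ _
    rw [pm]
    by_cases e : t = 0
    · subst e
      simp [fac]
    · rw [if_neg e, Multiset.coe_nil, if_neg (Ne.symm e)]
  | cons i s ih =>
    intro t hs ht
    have hi := hs i List.mem_cons_self
    rw [pm, ← Multiset.cons_coe]
    by_cases c : i ∈ t
    · obtain ⟨t', rfl⟩ := Multiset.exists_cons_of_mem c
      rw [sum_eq_single i (fun j hj ne => by
          rw [h i hi j (ht j (Multiset.mem_toFinset.1 hj)), if_neg (Ne.symm ne), mul_zero, zero_mul])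
        (fun n => absurd (Multiset.mem_toFinset.2 c) n), h i hi i hi, if_pos rfl,
        Multiset.erase_cons_head, ih t' (fun j hj => hs j (List.mem_cons_of_mem _ hj))
          fun j hj => ht j (Multiset.mem_cons_of_mem hj)]
      by_cases e : (s : Multiset ι) = t'
      · rw [if_pos e, if_pos (by rw [e]), Multiset.map_cons, Multiset.prod_cons, fac_cons]
        ring
      · rw [if_neg e, if_neg (mt (Multiset.cons_inj_right _).1 e), mul_zero]
    · rw [if_neg fun e : i ::ₘ (s : Multiset ι) = t => c (e ▸ Multiset.mem_cons_self _ _)]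
      refine sum_eq_zero fun j hj => ?_
      rw [h i hi j (ht j (Multiset.mem_toFinset.1 hj)),
        if_neg fun e : i = j => c (e ▸ Multiset.mem_toFinset.1 hj), mul_zero, zero_mul]

end fac

section tm
variable {Φ : Type} [Fintype Φ]

/-- the multiset of labelled parts -/
def tm (μ : Φ → Multiset ℕ) : Multiset (Φ × ℕ) := ∑ φ, (μ φ).map (Prod.mk φ)

theorem mem_tm {μ : Φ → Multiset ℕ} {x : Φ × ℕ} (h : x ∈ tm μ) : x.2 ∈ μ x.1 := by
  obtain ⟨φ, -, h⟩ := Multiset.mem_sum.1 h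
  obtain ⟨k, hk, rfl⟩ := Multiset.mem_map.1 h
  exact hk

theorem map_tm {M : Type*} (μ : Φ → Multiset ℕ) (f : Φ × ℕ → M) :
    (tm μ).map f = ∑ φ, (μ φ).map fun k => f (φ, k) := by
  refine (map_sum (Multiset.mapAddMonoidHom f) _ _).trans ?_
  simp only [Multiset.coe_mapAddMonoidHom, Multiset.map_map, Function.comp_def]

theorem prod_tm {M : Type*} [CommMonoid M] (μ : Φ → Multiset ℕ) (f : Φ × ℕ → M) :
    ((tm μ).map f).prod = ∏ φ, ((μ φ).map fun k => f (φ, k)).prod := by
  rw [map_tm, Multiset.prod_sum]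

theorem sum_tm (μ : Φ → Multiset ℕ) (dg : Φ → ℕ) :
    ((tm μ).map fun x => dg x.1 * x.2).sum = wm dg μ := by
  rw [map_tm, Multiset.sum_sum, wm]
  exact sum_congr rfl fun φ _ =>
    (Multiset.sum_map_mul_left (s := μ φ) (a := dg φ) (f := fun k : ℕ => k)).trans
      (by rw [Multiset.map_id'])

variable [DecidableEq Φ]

theorem count_tm (μ : Φ → Multiset ℕ) (φ : Φ) (k : ℕ) : (tm μ).count (φ, k) = (μ φ).count k := by
  rw [tm, Multiset.count_sum', sum_eq_single φ (fun ψ _ ne => Multiset.count_eq_zero.2 fun h => by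
    obtain ⟨_, -, e⟩ := Multiset.mem_map.1 h
    exact ne (congrArg Prod.fst e)) (fun n => absurd (mem_univ _) n),
    Multiset.count_map_eq_count' _ _ (Prod.mk_right_injective φ)]

theorem tm_inj {μ μ' : Φ → Multiset ℕ} (h : tm μ = tm μ') : μ = μ' :=
  funext fun φ => Multiset.ext.2 fun k => by rw [← count_tm, h, count_tm]

theorem fac_tm (μ : Φ → Multiset ℕ) : fac (tm μ) = ∏ φ, fac (μ φ) := by
  rw [fac_eq _ (S := univ ×ˢ univ.biUnion fun φ => (μ φ).toFinset) fun x hx =>
    mem_product.2 ⟨mem_univ _, mem_biUnion.2 ⟨x.1, mem_univ _,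
      Multiset.mem_toFinset.2 (mem_tm (Multiset.mem_toFinset.1 hx))⟩⟩, prod_product]
  refine prod_congr rfl fun φ _ => ?_
  rw [fac_eq (μ φ) (subset_biUnion_of_mem (fun φ => (μ φ).toFinset) (mem_univ φ))]
  simp only [count_tm]

end tm

theorem morth (hF : FOCKStmt.{u}) (hP : PERMStmt.{u}) : MORTHStmt.{u} := by
  intro F _ _ _ η H Φ _ _ dg In n0 P k0 v k0' v' g s1 s2 gr μ μ' m1 m2 w1 w2
  have fk := hF F η H
  let J : Set (Φ × ℕ) := {x | In x.1 ∧ 0 < x.2 ∧ dg x.1 * x.2 ≤ n0}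
  have hJ : ∀ ν, MonOn In ν → wm dg ν ≤ n0 → ∀ x ∈ tm ν, x ∈ J := fun ν m w x hx => by
    have a := mem_tm hx
    refine ⟨by_contra fun c => ?_, (m _).1 _ a, le_trans ?_ w⟩
    · rw [(m _).2 c] at a
      exact Multiset.notMem_zero _ a
    · exact (Nat.mul_le_mul_left _ (Multiset.le_sum_of_mem a)).trans
        (single_le_sum (f := fun φ => dg φ * (ν φ).sum) (fun _ _ => Nat.zero_le _) (mem_univ x.1))
  have mn : ∀ ν, mon P ν = ((tm ν).map fun x => P x.1 x.2).prod := fun ν => by rw [prod_tm, mon]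
  have pr : ∀ x ∈ J, H.Pr (dg x.1 * x.2) (P x.1 x.2) := fun x hx => s1.pr _ _ hx.1 hx.2.1 hx.2.2
  have hg : ∀ t : Multiset (Φ × ℕ), (∀ x ∈ t, x ∈ J) →
      H.Hg (t.map fun x => dg x.1 * x.2).sum (t.map fun x => P x.1 x.2).prod := fun t => by
    induction t using Multiset.induction_on with
    | empty => exact fun _ => by simpa using fk.hg_one
    | cons x t ih =>
      intro h
      rw [Multiset.map_cons, Multiset.map_cons, Multiset.sum_cons, Multiset.prod_cons]
      exact fk.hg_mul (pr x (h x (Multiset.mem_cons_self _ _))).1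
        (ih fun y hy => h y (Multiset.mem_cons_of_mem hy))
  refine ⟨fk.hg_mul s1.hv (by rw [mn, ← sum_tm]; exact hg _ (hJ μ m1 w1)), ?_⟩
  have e := hP F η H (Φ × ℕ) (fun x => P x.1 x.2) (fun x => dg x.1 * x.2) J pr k0 k0' v v' s1.hv
    s2.hv (fun x hx => ⟨s1.vac _ _ hx.1 hx.2.1 hx.2.2, s2.vac _ _ hx.1 hx.2.1 hx.2.2⟩)
    (tm μ).toList (tm μ') (fun x hx => hJ μ m1 w1 x (Multiset.mem_toList.1 hx)) (hJ μ' m2 w2)
  rw [← Multiset.sum_coe, ← Multiset.prod_coe, ← Multiset.map_coe, ← Multiset.map_coe,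
    Multiset.coe_toList, sum_tm, ← mn, ← mn, pm_diag _ (fun x => g x.1 x.2) J
      (fun x hx y hy => (gr _ _ _ _ hx.1 hy.1 hx.2.1 hy.2.1 hx.2.2 hy.2.2).trans
        (if_congr Prod.ext_iff.symm rfl rfl)) _ _
      (fun x hx => hJ μ m1 w1 x (Multiset.mem_toList.1 hx)) (hJ μ' m2 w2),
    Multiset.coe_toList] at e
  rw [e]
  by_cases c : μ = μ'
  · subst c
    rw [if_pos rfl, if_pos rfl, prod_tm, fac_tm, prod_mul_distrib]
    rfl
  · rw [if_neg c, if_neg (mt tm_inj c), mul_zero]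

end Cfsg.Agent.H72.GbMorth
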