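import Cfsg.Agent.H9.C3Defs

/-! The case division by the commuting graph of the four-groups. -/

set_option autoImplicit false

namespace Cfsg.Agent.H72.C3Case

open Subgroup Cfsg.Agent.H62 Cfsg.Agent.H9.C3

universe u

/-- The vertices. -/
def vb (p q : Bool) : Fin 4 → Bool := ![p, p, q, q]

/-- The edges. -/
def eb (r s w z : Bool) : Fin 4 → Fin 4 → Bool :=
  ![![true, r, w, z], ![r, true, z, w], ![w, z, true, s], ![z, w, s, true]]

set_option synthInstance.maxSize 4096 in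
set_option synthInstance.maxHeartbeats 400000 in
theorem comb0 : ∀ p q r s w z : Bool,
    (∀ i k, vb p q i → vb p q k → eb r s w z k i → eb r s w z k (sg i) →
      ∃ m, vb p q m ∧ eb r s w z m (sg m)) →
    (∀ i, ¬ vb p q i) ∨ (∃ i, vb p q i ∧ ∀ j, vb p q j → eb r s w z i j → j = i) ∨
    (∃ i j, i ≠ j ∧ vb p q i ∧ vb p q j ∧ eb r s w z i j ∧
      (∀ k, vb p q k → eb r s w z k i → eb r s w z k j → k = i ∨ k = j) ∧
      (j = sg i ∨ ∀ k, vb p q k → eb r s w z k i ∨ eb r s w z k j → k = i ∨ k = j)) ∨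
    ((∀ i, vb p q i) ∧ (((∀ j, eb r s w z 0 j) ∧ (∀ j, eb r s w z 1 j) ∧ ¬ eb r s w z 2 3) ∨
      ((∀ j, eb r s w z 2 j) ∧ (∀ j, eb r s w z 3 j) ∧ ¬ eb r s w z 1 0) ∨
      ∀ i j, eb r s w z i j)) := by
  decide +kernel

theorem comb (b : Fin 4 → Prop) (a : Fin 4 → Fin 4 → Prop) (hb : ∀ i, b (sg i) ↔ b i)
    (ha : ∀ i j, a (sg i) (sg j) ↔ a i j) (hs : ∀ i j, a i j ↔ a j i) (hr : ∀ i, a i i)
    (h : ∀ i k, b i → b k → a k i → a k (sg i) → ∃ m, b m ∧ a m (sg m)) :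
    (∀ i, ¬ b i) ∨ (∃ i, b i ∧ ∀ j, b j → a i j → j = i) ∨
    (∃ i j, i ≠ j ∧ b i ∧ b j ∧ a i j ∧ (∀ k, b k → a k i → a k j → k = i ∨ k = j) ∧
      (j = sg i ∨ ∀ k, b k → a k i ∨ a k j → k = i ∨ k = j)) ∨
    ((∀ i, b i) ∧ (((∀ j, a 0 j) ∧ (∀ j, a 1 j) ∧ ¬ a 2 3) ∨
      ((∀ j, a 2 j) ∧ (∀ j, a 3 j) ∧ ¬ a 1 0) ∨ ∀ i j, a i j)) := by
  classical
  have e1 : ∀ i, b i ↔ vb (decide (b 0)) (decide (b 2)) i = true := by
    intro i
    fin_cases i
    exacts [decide_eq_true_iff.symm, (hb 0).trans decide_eq_true_iff.symm,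
      decide_eq_true_iff.symm, (hb 2).trans decide_eq_true_iff.symm]
  have e2 : ∀ i j, a i j ↔
      eb (decide (a 0 1)) (decide (a 2 3)) (decide (a 0 2)) (decide (a 0 3)) i j = true := by
    have t : ∀ i, a i i ↔ true = true := fun i => ⟨fun _ => rfl, fun _ => hr i⟩
    have d : ∀ {p : Prop}, p ↔ decide p = true := decide_eq_true_iff.symm
    intro i j
    fin_cases i <;> fin_cases j
    exacts [t _, d, d, d, (hs 1 0).trans d, t _, (ha 0 3).trans d, (ha 0 2).trans d,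
      (hs 2 0).trans d, ((hs 2 1).trans (ha 0 3)).trans d, t _, d,
      (hs 3 0).trans d, ((hs 3 1).trans (ha 0 2)).trans d, (hs 3 2).trans d, t _]
  generalize decide (b 0) = p, decide (b 2) = q, decide (a 0 1) = r, decide (a 2 3) = s,
    decide (a 0 2) = w, decide (a 0 3) = z at e1 e2
  simp only [e1, e2] at h ⊢
  exact comb0 p q r s w z h

variable {G : Type u} [Group G] {P : Subgroup G} {e x : G}

theorem nm_conj {A : Subgroup G} {g a : G} (hg : g ∈ Nm A) (ha : a ∈ A) : g * a * g⁻¹ ∈ A :=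
  (mem_normalizer_iff.1 hg a).1 ha

theorem W_le {I : Finset (Fin 4)} {j : Fin 4} (hj : j ∈ I) : W e x j ≤ Pr e x I :=
  le_iSup₂_of_le (f := fun j (_ : j ∈ I) => W e x j) j hj le_rfl

theorem sg_sg (i : Fin 4) : sg (sg i) = i := by fin_cases i <;> rfl

theorem W_sg (L : Lin0 P e x) (i : Fin 4) {w : G} (hw : w ∈ W e x (sg i)) :
    ∃ v ∈ W e x i, w = e * v * e⁻¹ :=
  ⟨e⁻¹ * w * e, (L.cj i _).2 (by rwa [show e * (e⁻¹ * w * e) * e⁻¹ = w by group]), by group⟩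

theorem big_sg (L : Lin0 P e x) {i : Fin 4} (h : W e x i ≠ ⊥) : W e x (sg i) ≠ ⊥ := fun h0 =>
  h (eq_bot_iff.2 fun v hv => by
    have := (L.cj i v).1 hv
    rw [h0, mem_bot] at this
    exact mem_bot.2 (by simpa using this))

theorem cm_sg (L : Lin0 P e x) {i j : Fin 4} (h : Cm (W e x i) (W e x j)) :
    Cm (W e x (sg i)) (W e x (sg j)) := by
  intro a ha b hb
  obtain ⟨v, hv, rfl⟩ := W_sg L i ha
  obtain ⟨w, hw, rfl⟩ := W_sg L j hb
  calc _ = e * (v * w) * e⁻¹ := by group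
    _ = _ := by rw [h v hv w hw]; group

theorem le_sg (L : Lin0 P e x) {R : Subgroup G} (hR : e ∈ Nm R) {i : Fin 4} (h : W e x i ≤ R) :
    W e x (sg i) ≤ R := fun w hw => by
  obtain ⟨v, hv, rfl⟩ := W_sg L i hw
  exact nm_conj hR (h hv)

theorem cm_symm {A B : Subgroup G} (h : Cm A B) : Cm B A := fun b hb a ha => (h a ha b hb).symm

theorem e_nm (L : Lin0 P e x) (i : Fin 4) : e ∈ Nm (Pr e x {i, sg i}) :=
  mem_normalizer_iff.2 fun v => by
    have h := L.cjP {i, sg i} v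
    rwa [Finset.image_insert, Finset.image_singleton, sg_sg, Finset.pair_comm (sg i)] at h

theorem exists_W (L : Lin0 P e x) {K : Subgroup G} (h2 : IsPGroup 2 K) (hP : P ≤ Nm K)
    (hK : K ≠ ⊥) : ∃ j, W e x j ≠ ⊥ ∧ W e x j ≤ K := by
  obtain ⟨I, hI, e1⟩ := L.gen K h2 hP
  rcases I.eq_empty_or_nonempty with rfl | ⟨j, hj⟩
  · exact absurd (e1.trans (by simp [Pr])) hK
  · exact ⟨j, (hI j).1 hj⟩

theorem exists_cen [Finite G] (L : Lin0 P e x) {R T : Subgroup G} (h2 : IsPGroup 2 R)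
    (hR : P ≤ Nm R) (hT : P ≤ Nm T) (hle : T ≤ R) (hn : R ≤ Nm T) (h0 : T ≠ ⊥) :
    ∃ j, W e x j ≠ ⊥ ∧ W e x j ≤ T ∧ Cm (W e x j) R := by
  obtain ⟨y, hy, y1, hc⟩ := exists_central h2 hle h0 fun s hs y hy => nm_conj (hn hs) hy
  have key : ∀ g ∈ P, ∀ v ∈ T ⊓ centralizer (R : Set G),
      g * v * g⁻¹ ∈ T ⊓ centralizer (R : Set G) := fun g hg v hv =>
    ⟨nm_conj (hT hg) hv.1, mem_centralizer_iff.2 fun r hr => by
      have h1 := mem_centralizer_iff.1 hv.2 _ (nm_conj (inv_mem (hR hg)) hr)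
      calc _ = g * (g⁻¹ * r * g⁻¹⁻¹ * v) * g⁻¹ := by group
        _ = _ := by rw [h1]; group⟩
  obtain ⟨j, hj, hj'⟩ := exists_W L (K := T ⊓ centralizer (R : Set G))
    (h2.to_le (inf_le_left.trans hle)) (fun g hg => mem_normalizer_iff.2 fun v => ⟨key g hg v, fun h => by
      have := key _ (inv_mem hg) _ h
      rwa [show g⁻¹ * (g * v * g⁻¹) * g⁻¹⁻¹ = v by group] at this⟩)
    fun h => y1 (mem_bot.1 (h ▸ (⟨hy, mem_centralizer_iff.2 hc⟩ : y ∈ T ⊓ centralizer (R : Set G))))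
  exact ⟨j, hj, hj'.trans inf_le_left, fun a ha r hr =>
    (mem_centralizer_iff.1 (hj' ha).2 r hr).symm⟩

theorem ea_W (K : Kit G) (L : Lin0 P e x) (i : Fin 4) : EA (W e x i) := fun g hg =>
  ((K.mem _ (L.ord i) g).1 hg).1

theorem square [Finite G] (K : Kit G) (L : Lin0 P e x) (i k : Fin 4) (hi : W e x i ≠ ⊥)
    (hk : W e x k ≠ ⊥) (h1 : Cm (W e x k) (W e x i)) (h2 : Cm (W e x k) (W e x (sg i))) :
    ∃ m, W e x m ≠ ⊥ ∧ Cm (W e x m) (W e x (sg m)) := by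
  obtain ⟨Q, hQ, -, -, hm⟩ := K.tt _ (L.ord k) hk
  have hle : ∀ j, Cm (W e x k) (W e x j) → W e x j ≤ Q := fun j hj g hg =>
    hm g (mem_centralizer_iff.2 fun v hv => hj v hv g hg) 1 (by
      rw [pow_one, pow_two]; exact ea_W K L j g hg)
  have hR : Pr e x {i, sg i} ≤ Q := iSup₂_le fun j hj => by
    rcases Finset.mem_insert.1 hj with rfl | hj
    · exact hle _ h1
    · rw [Finset.mem_singleton.1 hj]; exact hle _ h2
  obtain ⟨m, hm1, hm2, hm3⟩ := exists_cen L (hQ.to_le hR) (L.nP _) (L.nP _) le_rfl le_normalizer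
    fun h => hi (eq_bot_iff.2 (h ▸ W_le (Finset.mem_insert_self _ _)))
  exact ⟨m, hm1, fun a ha b hb => hm3 a ha b (le_sg L (e_nm L i) hm2 hb)⟩

theorem isolated (K : Kit G) (L : Lin0 P e x) {i : Fin 4} (hi : W e x i ≠ ⊥)
    (h : ∀ j, W e x j ≠ ⊥ → Cm (W e x i) (W e x j) → j = i) :
    ∀ g ∈ centralizer (W e x i : Set G), ∀ k : ℕ, g ^ 2 ^ k = 1 → g ∈ W e x i := by
  obtain ⟨Q, hQ, hn, hc, hm⟩ := K.tt _ (L.ord i) hi
  obtain ⟨I, hI, e1⟩ := L.gen Q hQ ((L.nW i).trans hn)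
  have hle : Pr e x I ≤ W e x i := iSup₂_le fun j hj => by
    obtain ⟨h1, h2⟩ := (hI j).1 hj
    rw [h j h1 fun a ha b hb => mem_centralizer_iff.1 (hc (h2 hb)) a ha]
  exact fun g hg k hk => hle (e1 ▸ hm g hg k hk)

theorem tdat [Finite G] (K : Kit G) (L : Lin P e x) {i j : Fin 4} (hij : i ≠ j) (hi : W e x i ≠ ⊥)
    (hj : W e x j ≠ ⊥) (hc : Cm (W e x i) (W e x j))
    (h3 : ∀ k, W e x k ≠ ⊥ → Cm (W e x k) (W e x i) → Cm (W e x k) (W e x j) → k = i ∨ k = j)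
    (h : j = sg i ∨ ∀ k, W e x k ≠ ⊥ → Cm (W e x k) (W e x i) ∨ Cm (W e x k) (W e x j) →
      k = i ∨ k = j) : TDat (Pr e x {i, j}) := by
  have L0 := L.toLin0
  have hr : ∀ k, Cm (W e x k) (W e x k) := fun k a ha b hb => (ea_W K L0 k).comm ha hb
  have hb : ∀ k ∈ ({i, j} : Finset (Fin 4)), W e x k ≠ ⊥ := by
    simp only [Finset.mem_insert, Finset.mem_singleton]
    rintro k (rfl | rfl) <;> assumption
  have hmem : ∀ k, k = i ∨ k = j → W e x k ≤ Pr e x {i, j} := fun k hk => W_le (by simpa using hk)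
  obtain ⟨c1, c2, c3⟩ := L.cl {i, j} hb (by
    simp only [Finset.mem_insert, Finset.mem_singleton]
    rintro k (rfl | rfl) l (rfl | rfl)
    exacts [hr _, hc, cm_symm hc, hr _])
  obtain ⟨J, hJ, e1, -⟩ := L.mcl {i, j} (Finset.card_pair hij).ge hb
  refine ⟨c1, by rw [c2, Finset.card_pair hij]; norm_num, ?_, fun R hT hR h2 hN => ?_⟩
  · rw [e1]
    refine iSup₂_le fun k hk => ?_
    obtain ⟨h4, h5⟩ := (hJ k).1 hk
    exact hmem k (h3 k h4 (h5 i (by simp)) (h5 j (by simp)))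
  · have hP := (L0.nP {i, j}).trans hN
    obtain ⟨m, m1, m2, m3⟩ := exists_cen L0 h2 hP (L0.nP _) hT hR
      fun h => hi (eq_bot_iff.2 (h ▸ hmem i (Or.inl rfl)))
    have hm : m = i ∨ m = j := by
      by_contra hm
      exact m1 ((inf_eq_left.2 m2).symm.trans (c3 m (by simpa using hm)))
    obtain ⟨I, hI, e2⟩ := L0.gen R h2 hP
    rw [e2]
    refine iSup₂_le fun k hk => hmem k ?_
    obtain ⟨h4, h5⟩ := (hI k).1 hk
    have h6 : Cm (W e x k) (W e x m) := fun a ha b hb => (m3 b hb a (h5 ha)).symm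
    rcases h with rfl | h
    · have h7 : Cm (W e x k) (W e x (sg m)) := by
        have h8 : Cm (W e x (sg k)) (W e x m) := fun a ha b hb =>
          (m3 b hb a (le_sg L0 (hN (e_nm L0 i)) h5 ha)).symm
        have := cm_sg L0 h8
        rwa [sg_sg] at this
      rcases hm with rfl | rfl
      · exact h3 k h4 h6 h7
      · rw [sg_sg] at h7
        exact h3 k h4 h7 h6
    · refine h k h4 ?_
      rcases hm with rfl | rfl
      exacts [Or.inl h6, Or.inr h6]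

theorem VV_inv (y : G) : VV y⁻¹ = VV y := by
  unfold VV
  congr 1
  ext g
  exact and_congr_right fun _ => Commute.inv_right_iff

theorem W_rel (F : Fr P e) (hc : Cm P P) (h3 : ∀ y ∈ P, y ^ 3 = 1) (hx : x ∈ P) (i : Fin 4) :
    W e (ln e x 2) i = W e x (![2, 3, 1, 0] i) := by
  have hb : e * x * e⁻¹ ∈ P := nm_conj F.norm hx
  have e1 : e * (e * x * e⁻¹) * e⁻¹ = x⁻¹ := by rw [← F.inv x hx]; group
  have e2 : x * (e * x * e⁻¹) * (e * (x * (e * x * e⁻¹)) * e⁻¹) = (e * x * e⁻¹)⁻¹ := by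
    rw [show e * (x * (e * x * e⁻¹)) * e⁻¹ = e * x * e⁻¹ * (e * (e * x * e⁻¹) * e⁻¹) by group, e1]
    have h4 := h3 _ hb
    have h5 := hc x hx _ hb
    generalize e * x * e⁻¹ = b at h4 h5
    rw [eq_inv_iff_mul_eq_one, ← h4]
    have h6 : x * b * x⁻¹ = b := by rw [h5, mul_inv_cancel_right]
    calc _ = (x * b * x⁻¹) * (x * b * x⁻¹) * b := by simp only [mul_assoc, inv_mul_cancel_left]
      _ = _ := by rw [h6, pow_three, mul_assoc]
  fin_cases i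
  · rfl
  · rfl
  · change VV (x * (e * x * e⁻¹) * (e * (x * (e * x * e⁻¹)) * e⁻¹)) = VV (e * x * e⁻¹)
    rw [e2, VV_inv]
  · change VV (e * (x * (e * x * e⁻¹) * (e * (x * (e * x * e⁻¹)) * e⁻¹)) * e⁻¹) = VV x
    rw [e2, show e * (e * x * e⁻¹)⁻¹ * e⁻¹ = (e * (e * x * e⁻¹) * e⁻¹)⁻¹ by
      simp only [mul_inv_rev, inv_inv, mul_assoc], e1, inv_inv]

theorem case : CaseStmt.{u} := by
  intro G _ _ K P e F hL
  obtain ⟨x, hx, x1⟩ := ((P : Subgroup G).bot_or_exists_ne_one).resolve_left fun h => by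
    have := K.c9 P
    rw [h, card_bot] at this
    omega
  have L := hL x hx x1
  have L0 := L.toLin0
  rcases comb (fun i => W e x i ≠ ⊥) (fun i j => Cm (W e x i) (W e x j))
    (fun i => ⟨fun h => sg_sg i ▸ big_sg L0 h, big_sg L0⟩)
    (fun i j => ⟨fun h => sg_sg i ▸ sg_sg j ▸ cm_sg L0 h, cm_sg L0⟩)
    (fun i j => ⟨cm_symm, cm_symm⟩) (fun k a ha b hb => (ea_W K L0 k).comm ha hb)
    (square K L0) with h | ⟨i, hi, h⟩ | ⟨i, j, hij, hi, hj, hc, h3, h⟩ | ⟨hb, h | h | h⟩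
  · refine Or.inl fun z hz z1 => ?_
    obtain ⟨i, rfl | rfl⟩ := L0.cov z hz z1
    · exact not_not.1 (h i)
    · exact (VV_inv _).trans (not_not.1 (h i))
  · exact Or.inr (Or.inl ⟨_, L0.ord i, hi, isolated K L0 hi h⟩)
  · exact Or.inr (Or.inr (Or.inl ⟨_, tdat K L hij hi hj hc h3 h⟩))
  · exact Or.inr (Or.inr (Or.inr (Or.inl ⟨x, hx, x1, hb, h.1, h.2.1, h.2.2⟩)))
  · have hW := W_rel F (K.comm P) (K.cube P) hx
    refine Or.inr (Or.inr (Or.inr (Or.inl ⟨ln e x 2, L0.mem 2, fun h1 => ?_, fun i => ?_,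
      fun j => ?_, fun j => ?_, ?_⟩)))
    · have := L0.ord 2
      rw [h1, orderOf_one] at this
      omega
    · rw [hW]; exact hb _
    · rw [hW, hW]; exact h.1 _
    · rw [hW, hW]; exact h.2.1 _
    · rw [hW, hW]; exact h.2.2
  · exact Or.inr (Or.inr (Or.inr (Or.inr ⟨x, hx, x1, hb, h⟩)))

end Cfsg.Agent.H72.C3Case
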