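import Cfsg.Agent.H50.E72Defs

/-! # Project E72, piece L43C: the mirror image of L43B -/

set_option autoImplicit false
set_option synthInstance.maxSize 2000

namespace Cfsg.Agent.H72.E72L43c

open Cfsg.Agent.H50.E72 Module
open scoped Matrix MatrixGroups

/-- The transpose with reversed coordinates. -/
def τ (g : SL(4, ZMod 3)) : SL(4, ZMod 3) := ⟨g.1ᵀ.submatrix Fin.revPerm Fin.revPerm, by
  rw [Matrix.det_submatrix_equiv_self, Matrix.det_transpose, g.2]⟩

theorem τ_mul (g h : SL(4, ZMod 3)) : τ (g * h) = τ h * τ g := Subtype.ext (by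
  change (g.1 * h.1)ᵀ.submatrix _ _ = h.1ᵀ.submatrix _ _ * g.1ᵀ.submatrix _ _
  rw [Matrix.transpose_mul, Matrix.submatrix_mul_equiv])

theorem τ_Tv (i j : Fin 4) : τ (Tv i j) = Tv j.rev i.rev := by
  refine Subtype.ext (Matrix.ext fun a b => ?_)
  change (Tv i j).1 b.rev a.rev = _
  by_cases h : i = j
  · simp [Tv, h, Matrix.one_apply, eq_comm]
  · simp [Tv, h, Ne.symm h, Matrix.transvection, Matrix.one_apply, Matrix.single_apply, eq_comm,
      Fin.rev_eq_iff, and_comm]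
    clear h; revert i j a b; decide

/-- The inverse transpose with reversed coordinates. -/
def θ : SL(4, ZMod 3) →* SL(4, ZMod 3) := MonoidHom.mk' (fun g => τ g⁻¹)
  fun g h => by rw [mul_inv_rev, τ_mul]

theorem θ_Tv (i j : Fin 4) : θ (Tv i j) = (Tv j.rev i.rev)⁻¹ := by
  rw [← inv_eq_iff_eq_inv, ← map_inv, ← τ_Tv, θ, MonoidHom.mk'_apply, inv_inv]

theorem act_inv {n : Type} [Fintype n] [DecidableEq n] (π : G0 →* Matrix n n (ZMod 2)) (g : G0)
    (v : n → K) : act π g⁻¹ v = v ↔ act π g v = v := by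
  have key : ∀ g : G0, act π g v = v → act π g⁻¹ v = v := fun g h => by
    nth_rewrite 1 [← h]
    rw [← Module.End.mul_apply, ← map_mul, inv_mul_cancel, map_one, Module.End.one_apply]
  exact ⟨fun h => by simpa using key _ h, key g⟩

theorem mem_iff (π : G0 →* M56 (ZMod 2)) (φ : SL(4, ZMod 3) →* G0) (i j : Fin 4) (v : Fin 56 → K) :
    act π (φ.comp θ (Tv i j)) v = v ↔ act π (φ (Tv j.rev i.rev)) v = v := by
  rw [MonoidHom.comp_apply, θ_Tv, map_inv, act_inv]

theorem l43c (hb : L43bStmt) : L43cStmt := fun π φ h i j hi hj => by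
  have e : Fix π (rowS (φ.comp θ)) = Fix π (colS φ) := by
    ext v
    simp only [mem_Fix, rowS, colS, Set.mem_insert_iff, Set.mem_singleton_iff, forall_eq_or_imp,
      forall_eq, mem_iff]
    exact ⟨fun ⟨a, b, c⟩ => ⟨c, b, a⟩, fun ⟨a, b, c⟩ => ⟨c, b, a⟩⟩
  intro v hv
  rw [← e] at h hv
  have := hb π (φ.comp θ) h j.rev i.rev (fun H => hj (Fin.rev_eq_iff.1 H))
    (fun H => hi (Fin.rev_eq_iff.1 H)) hv
  rw [mem_eig, one_smul] at this ⊢
  rwa [mem_iff, Fin.rev_rev, Fin.rev_rev] at this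

end Cfsg.Agent.H72.E72L43c
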