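import Cfsg.Agent.H6.E82Defs

/-! Project E82: fixed vectors of the unipotent group in a module with Steinberg factors only. -/

set_option autoImplicit false

namespace Cfsg.Agent.H72.E82Fit3

open Equiv Cfsg.Lie H37 H40 H34 H29 Module H82 H50.SL2S Finset Cfsg.Agent.H6.E82
open scoped Matrix MatrixGroups

theorem pow64 (s : F) : s ^ 64 = s := by
  rw [← card_F]
  exact FiniteField.pow_card s

theorem pow63 {s : F} (hs : s ≠ 0) : s ^ 63 = 1 :=
  mul_right_cancel₀ hs (by rw [← pow_succ, pow64, one_mul])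

theorem aux (ma : MonaStmt) (em : EmodStmt) (p : Par) {W : Type} [AddCommGroup W] [Module K W]
    [FiniteDimensional K W] (ρ : SL →* Module.End K W) {U : Submodule K W} {L : List ℕ}
    (h : Ser ρ p U L) (hL : ∀ r ∈ L, r = 63) :
    finrank K (U ⊓ Fx ρ (UU F) : Submodule K W) ≤ L.length ∧
      ∀ q ∈ U ⊓ Fx ρ (UU F), ∀ s hs, ρ (hh s hs) q = q := by
  induction h with
  | nil =>
    refine ⟨by rw [bot_inf_eq, finrank_bot]; exact Nat.zero_le _, fun q hq s hs => ?_⟩
    rw [(Submodule.mem_bot K).1 hq.1, map_zero]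
  | @cons U U' L r _ st ih =>
    obtain ⟨i1, i2⟩ := ih fun r hr => hL r (List.mem_cons_of_mem _ hr)
    obtain rfl := hL r List.mem_cons_self
    obtain ⟨-, -, hI, Φ, e1, e2, e3⟩ := st
    have key : ∀ q ∈ U' ⊓ Fx ρ (UU F), ∃ c : K, Φ q = c • mono p 63 0 := fun q hq =>
      (em p).2 _ (e2 ▸ Submodule.mem_map_of_mem hq.1) fun t => by
        rw [← e1 _ _ hq.1, hq.2 _ (uu_mem t)]
    constructor
    · have a := LinearMap.finrank_range_add_finrank_ker (Φ.domRestrict (U' ⊓ Fx ρ (UU F)))
      have b : finrank K (LinearMap.range (Φ.domRestrict (U' ⊓ Fx ρ (UU F)))) ≤ 1 := by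
        refine le_trans (Submodule.finrank_mono (t := K ∙ mono p 63 0) ?_)
          ((finrank_span_le_card _).trans (by simp))
        rintro _ ⟨q, rfl⟩
        obtain ⟨c, e⟩ := key q q.2
        exact Submodule.mem_span_singleton.2 ⟨c, e.symm⟩
      have c : finrank K (LinearMap.ker (Φ.domRestrict (U' ⊓ Fx ρ (UU F)))) ≤
          finrank K (U ⊓ Fx ρ (UU F) : Submodule K W) := by
        rw [← Submodule.finrank_map_subtype_eq]
        refine Submodule.finrank_mono ?_
        rintro _ ⟨q, hq, rfl⟩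
        exact ⟨(e3 _ q.2.1).1 hq, q.2.2⟩
      rw [List.length_cons]
      omega
    · intro q hq
      have two : ∀ s hs, ρ (hh s hs) (ρ (hh s hs) q) = q := fun s hs => by
        have hd : ρ (hh s hs) q - q ∈ U ⊓ Fx ρ (UU F) := by
          refine ⟨(e3 _ (U'.sub_mem (hI _ _ hq.1) hq.1)).1 ?_, Submodule.sub_mem _ ?_ hq.2⟩
          · obtain ⟨c, e⟩ := key q hq
            rw [map_sub, e1 _ _ hq.1, e, map_smul, (ma p 63 (by decide) 0 (by decide)).2.1,
              mul_zero, add_zero, ← map_pow, pow63 hs, map_one, one_smul, sub_self]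
          · rintro _ ⟨t, rfl⟩
            have : uu t * hh s hs = hh s hs * uu (s⁻¹ ^ 2 * t) := by
              rw [mul_inv_eq_iff_eq_mul.1 (hh_uu hs _), ← mul_assoc (s ^ 2), ← mul_pow,
                mul_inv_cancel₀ hs, one_pow, one_mul]
            rw [← Module.End.mul_apply, ← map_mul, this, map_mul, Module.End.mul_apply,
              hq.2 _ (uu_mem _)]
        have e := i2 _ hd s hs
        rw [map_sub, sub_eq_iff_eq_add] at e
        have z : ∀ a : W, a + a = 0 := fun a => by
          rw [← two_smul K, CharTwo.two_eq_zero (R := K), zero_smul]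
        rw [e, sub_add_eq_add_sub, z, zero_sub, neg_eq_of_add_eq_zero_left (z q)]
      intro s hs
      have e : hh s hs = hh (s ^ 32) (pow_ne_zero _ hs) * hh (s ^ 32) (pow_ne_zero _ hs) := by
        rw [hh_mul_hh]
        congr 1
        rw [← pow_add, pow64]
      rw [e, map_mul, Module.End.mul_apply, two]

theorem fit3 (ma : MonaStmt) (em : EmodStmt) : Fit3Stmt := by
  intro p W _ _ _ ρ U L h hL
  obtain ⟨a, b⟩ := aux ma em p ρ h hL
  refine ⟨a, fun q hq g hg => ?_⟩
  rw [eq_hh_mul_uu hg, map_mul, Module.End.mul_apply, hq.2 _ (uu_mem _), b q hq]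

end Cfsg.Agent.H72.E82Fit3
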