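import Cfsg.Agent.H6.E82Defs
import Cfsg.Agent.H34.Twist1

/-! Project E82: the twisted centraliser of a non-regular torus element of order `65`. -/

set_option autoImplicit false

namespace Cfsg.Agent.H72.E82Twb

open Equiv Cfsg.Lie H37 H40 H34 H29 Module H82 H50.SL2S Finset Cfsg.Agent.H6.E82
open scoped Matrix MatrixGroups

theorem orth1 : Cert.Orth chevE8 123 135 := by decide +kernel
theorem orth2 : Cert.Orth chevE8 121 130 := by decide +kernel

theorem orth (i : ℕ) : Cert.Orth chevE8 (al i) (be i) := by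
  unfold al be
  split_ifs
  exacts [orth1, orth2]

theorem cm (i : ℕ) (s u : K) : Commute (xx (al i) s) (xx (be i) u) :=
  Cert.commute_xg (orth i _ (by simp) _ (by simp)) s u

theorem cm' (i : ℕ) (s u : K) : Commute (xx (ng (al i)) s) (xx (ng (be i)) u) := by
  unfold xx
  rw [C8.neg_val, C8.neg_val]
  exact Cert.commute_xg (orth i _ (by simp) _ (by simp)) s u

/-- the twisted Frobenius map fixes `x2` -/
theorem fix_x2 (fr : FrameStmt) {n : GK} {α β : Rt} (h1 : ∀ t, n * xx α t * n⁻¹ = xx β t)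
    (h2 : ∀ t, n * xx β t * n⁻¹ = xx α t) (c : ∀ s u, Commute (xx α s) (xx β u)) {s : K}
    (hs : s ^ 4 = s) : n * φ (x2 α β s) * n⁻¹ = x2 α β s := by
  rw [x2, map_mul, fr.2.2.2.2.1, fr.2.2.2.2.1, ← conj_mul, h1, h2, ← pow_mul, hs, (c _ _).eq]

theorem twb (brc : BrcStmt) (mu : MuStmt) (fr : FrameStmt) (na : NactStmt) (da : DatAStmt)
    (db : DatBStmt) (so : SolvStmt) (st : StabStmt) : TwbStmt := by
  intro i hi h2 ζ t hζ hl
  obtain ⟨o, z⟩ := (da i hi).2.2 h2
  obtain ⟨d1, -, d3⟩ := db i hi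
  obtain ⟨wa, wb⟩ := d3 h2
  obtain ⟨n1, n2, n3, n4, n5, n6⟩ := na (wl i)
  have one : ∀ r, r = al i ∨ r = ng (al i) ∨ r = be i ∨ r = ng (be i) →
      ζ ^ vN C8 (rep i) r = 1 := fun r hr => by
    rw [← zpow_zero ζ, zpow_eq_iff hζ, (z r).2 hr, Int.cast_zero]
  have sup : ∀ v, act t v = v → Sup (al i) (be i) v := fun v hv r a b c d => by
    have e := (mu.2.1 ζ t _ hl v).2 r
    rw [hv] at e
    by_contra c0
    have e1 : ζ ^ vN C8 (rep i) r = ζ ^ (0 : ℤ) := by
      rw [zpow_zero]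
      exact Units.ext (mul_right_cancel₀ c0 (e.symm.trans (one_mul _).symm))
    rw [zpow_eq_iff hζ, Int.cast_zero, z] at e1
    exact e1.elim a fun e => e.elim b fun e => e.elim c d
  have fx : ∀ r, r = al i ∨ r = ng (al i) ∨ r = be i ∨ r = ng (be i) → act t (ee r) = ee r :=
    fun r hr => funext fun j => by
      rcases j with j | s
      · exact (mu.2.1 ζ t _ hl _).1 j
      · rw [(mu.2.1 ζ t _ hl _).2 s, brc.2.2.2.2.1]
        split_ifs with c
        · rw [c, one r hr, Units.val_one, one_mul]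
        · rw [mul_zero]
  have cx : ∀ r, r = al i ∨ r = ng (al i) ∨ r = be i ∨ r = ng (be i) → ∀ s, Commute (xx r s) t :=
    fun r hr s => by
      have := hl.conj_xg r s
      rw [one r hr, Units.val_one, one_mul] at this
      exact (mul_inv_eq_iff_eq_mul.1 this).symm
  refine ⟨?_, fun v hv => so _ _ o v fun j => sup _ (hv j), fun A hA ab => ?_⟩
  · have e : (nn (wl i))⁻¹ * t * nn (wl i) = t ^ 2 :=
      ((hl.conj n1).eq_iff (hl.pow 2)).2 fun r => (zpow_eq_iff hζ).2 (by
        rw [n2, d1]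
        simp)
    rw [fr.2.2.2.2.2 t hl.mem_H, ← e]
    group
  · have tw : ∀ v ∈ A, Tw (al i) (be i) v := fun v hv => by
      have a : ∀ r, v (Sum.inr (C8.S.word (wl i) r)) = v (Sum.inr r) ^ 2 := fun r => by
        conv_lhs => rw [← (hA v hv).1, n4]
        rfl
      have b : ∀ r, ev (C8.S.word (wl i) r) v = ev r v ^ 2 := fun r => by
        conv_lhs => rw [← (hA v hv).1, n5, brc.2.2.2.2.2.2.2.2.2.2.1]
      refine ⟨?_, ?_, ?_, ?_, ?_, ?_⟩
      · rw [← a, wa]
      · rw [← a, wb]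
      · rw [← a, n6, wa]
      · rw [← a, n6, wb]
      · rw [← b, wa]
      · rw [← b, wb]
    obtain ⟨s, s4, fA, mv⟩ := st _ _ o A (fun v hv => ⟨sup v (hA v hv).2, tw v hv⟩) ab
    have f1 : ∀ j, nn (wl i) * φ (x2 (al i) (be i) (s j)) * (nn (wl i))⁻¹ = _ := fun j =>
      fix_x2 fr (fun u => by rw [n3, wa]) (fun u => by rw [n3, wb]) (cm i) (s4 j)
    have f2 : ∀ j, nn (wl i) * φ (x2 (ng (al i)) (ng (be i)) (s j)) * (nn (wl i))⁻¹ = _ := fun j =>
      fix_x2 fr (fun u => by rw [n3, n6, wa]) (fun u => by rw [n3, n6, wb]) (cm' i) (s4 j)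
    have c1 : ∀ u, Commute (x2 (al i) (be i) u) t := fun u =>
      (cx _ (.inl rfl) _).mul_left (cx _ (.inr (.inr (.inl rfl))) _)
    have c2 : ∀ u, Commute (x2 (ng (al i)) (ng (be i)) u) t := fun u =>
      (cx _ (.inr (.inl rfl)) _).mul_left (cx _ (.inr (.inr (.inr rfl))) _)
    refine ⟨gw _ _ s, ?_, (((c1 _).mul_left (c2 _)).mul_left (c1 _)).mul_left (c2 _), fun hg => ?_,
      fA⟩
    · rw [gw, map_mul, map_mul, map_mul, ← conj_mul, ← conj_mul, ← conj_mul, f1, f1, f2, f2]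
    · have key : ∀ v, act t v = v → ∀ g ∈ Subgroup.zpowers t, act g v = v := fun v hv g hg => by
        have hp : ∀ m : ℕ, act (t ^ m) v = v := fun m => by
          induction m with
          | zero => rw [pow_zero, map_one, Module.End.one_apply]
          | succ m ih => rw [pow_succ, map_mul, Module.End.mul_apply, hv, ih]
        have fo : IsOfFinOrder t := isOfFinOrder_iff_pow_eq_one.2 ⟨65, by decide, hl.pow_eq_one hζ⟩
        obtain ⟨m, rfl⟩ := (Submonoid.mem_powers_iff _ _).1 (fo.mem_powers_iff_mem_zpowers.2 hg)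
        exact hp m
      exact mv.elim (fun c => c (key _ (fx _ (.inl rfl)) _ hg))
        fun c => c (key _ (fx _ (.inr (.inl rfl))) _ hg)

end Cfsg.Agent.H72.E82Twb
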