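import Cfsg.Agent.H11.ElDefs

/-! # Project EL, piece CK: small centralisers of the line -/

set_option autoImplicit false

namespace Cfsg.Agent.H72.ElCk

open Subgroup Cfsg.Agent.H11.EL

universe u

theorem ck (b : Base.{u}) (cy : CYStmt.{u}) : CKStmt.{u} := by
  intro G _ _ D A B h
  have lp := h.ne.lp _ h.hA _ h.hB h.AB
  obtain ⟨f, s, hf⟩ := b.lc1 _ _ lp
  have lc := b.lc _ _ f s lp hf
  have lt := b.lt _ _ f s lp lc
  have key : ∀ x ∈ Nm A, x ∈ Nm B → (orderOf x).Coprime 5 →
      Nat.card (Nm A ⊓ Nm B : Subgroup G) = orderOf x * 5 →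
      IsCyclic (Nm A ⊓ Nm B : Subgroup G) := fun x h1 h2 h3 h4 =>
    isCyclic_of_orderOf_eq_card (⟨x * f, mem_inf.2 ⟨mul_mem h1 hf.fA, mul_mem h2 hf.fB⟩⟩ :
      (Nm A ⊓ Nm B : Subgroup G))
      (by rw [orderOf_mk, (lc.com x h1 h2).orderOf_mul_eq_mul_orderOf_of_coprime (hf.fo ▸ h3), hf.fo,
        h4])
  refine ⟨fun e1 hK => ?_, fun hK y h1 h2 h3 => by_contra fun hy => ?_⟩
  · have h1 := lt.e1c e1
    simp only [Set.mem_insert_iff, Set.mem_singleton_iff] at hK
    have h2 : IsCyclic (Ct (A ⊔ B)) := by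
      rcases hK with e | e | e | e
      · haveI := (Nat.card_eq_one_iff_unique.1 e).1
        exact isCyclic_of_subsingleton
      · exact isCyclic_of_prime_card e
      · exact isCyclic_of_prime_card e
      · haveI : Fact (Nat.Prime 11) := ⟨by norm_num⟩
        exact isCyclic_of_prime_card e
    obtain ⟨⟨k, hk⟩, h3⟩ := h2.exists_ofOrder_eq_natCard
    rw [orderOf_mk] at h3
    refine cy D A B h (key k
      (centralizer_le_normalizer _ (centralizer_le (le_sup_left : A ≤ A ⊔ B) hk))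
      (centralizer_le_normalizer _ (centralizer_le (le_sup_right : B ≤ A ⊔ B) hk)) ?_
      (by rw [h1, h3, mul_comm])) ?_
    · rw [h3]
      rcases hK with e | e | e | e <;> rw [e] <;> norm_num
    · rw [h1, CyN]
      omega
  · have h4 : y * y ∈ Ct (A ⊔ B) := lc.cen _ (fun a ha => by
      have h5 := h3 a ha
      have h6 := h3 _ (inv_mem ha)
      rw [zpow_neg_one] at h5 h6
      rw [inv_inv, ← h5] at h6
      nth_rewrite 1 [← h6]
      group) (mul_mem h2 h2)
    have h5 : (y * y) ^ 2 = 1 := by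
      have := pow_card_eq_one' (x := (⟨_, h4⟩ : Ct (A ⊔ B)))
      rw [hK] at this
      exact congrArg Subtype.val this
    have h6 : orderOf y = 2 ^ (1 + 1) := orderOf_eq_prime_pow (by rwa [pow_one, sq])
      (by rw [← h5, ← sq y, ← pow_mul]; rfl)
    have h7 := lt.e2c fun e => e y h1 h2 h3
    refine cy D A B h (key y h1 h2 (by rw [h6]; norm_num) (by rw [h7, hK, h6]; rfl)) ?_
    rw [h7, hK, CyN]
    omega

end Cfsg.Agent.H72.ElCk
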