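import Cfsg.Agent.H11.ElDefs

/-! # Project EL, piece NT: double transitivity on the class -/

set_option autoImplicit false

namespace Cfsg.Agent.H72.ElNt

open Subgroup MulAction Cfsg.Agent.H11.EL

universe u

theorem nt (b : Base.{u}) : NTStmt.{u} := by
  intro G _ _ D h
  haveI : Fact (Nat.Prime 5) := ⟨by norm_num⟩
  have c := h.toNJ.toCls
  have tor : ∀ A B : Pt c, A ≠ B → ∃ f ∈ Nm A.1, orderOf f = 5 ∧ f • B = B ∧
      ∀ E : Pt c, E ≠ A → f • E = E → E = B := fun A B hAB => by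
    have hne : A.1 ≠ B.1 := fun e => hAB (Subtype.ext e)
    obtain ⟨f, s, hf⟩ := b.lc1 A.1 B.1 (h.lp _ A.2 _ B.2 hne)
    exact ⟨f, hf.fA, hf.fo, (pt_fix c f B).2 hf.fB, fun E hE e => Subtype.ext
      (h.two' _ A.2 f hf.fA hf.big _ E.2 _ B.2 (fun e => hE (Subtype.ext e)) hne.symm
        ((pt_fix c f E).1 e) hf.fB)⟩
  have p5 : ∀ {X : Type u} [Group X] (f : X), orderOf f = 5 → IsPGroup 5 (zpowers f) :=
    fun f hf => IsPGroup.of_card (n := 1) (by rw [Nat.card_zpowers, hf, pow_one])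
  obtain ⟨A₀, B₀, hne⟩ : ∃ A B : Pt c, A ≠ B :=
    let ⟨A, hA, B, hB, e⟩ := h.two; ⟨⟨A, hA⟩, ⟨B, hB⟩, fun e' => e (congrArg Subtype.val e')⟩
  have v5 : Nat.card (Pt c) % 5 = 2 := by
    obtain ⟨f, f1, f2, f3, f4⟩ := tor _ _ hne
    have h1 := (p5 f f2).card_modEq_card_fixedPoints (Pt c)
    have h2 : fixedPoints (zpowers f) (Pt c) = {A₀, B₀} := by
      ext E
      refine ⟨fun H => or_iff_not_imp_left.2 fun e => f4 E e (H ⟨f, mem_zpowers f⟩), fun H g => ?_⟩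
      refine (zpowers_le (H := stabilizer G E)).2 ?_ g.2
      rcases H with rfl | rfl
      exacts [(pt_fix c f _).2 f1, f3]
    rw [h2, Nat.card_coe_set_eq, Set.ncard_pair hne] at h1
    exact h1
  have tr1 : ∀ A B B' : Pt c, A ≠ B → A ≠ B' → ∃ n : Nm A.1, n • B = B' := fun A B B' h1 h2 => by
    obtain ⟨f, f1, f2, -, f4⟩ := tor _ _ h1
    obtain ⟨g, g1, g2, -, g4⟩ := tor _ _ h2
    obtain ⟨P, hP⟩ := (p5 (⟨f, f1⟩ : Nm A.1) (by rw [← f2, orderOf_mk])).exists_le_sylow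
    obtain ⟨Q, hQ⟩ := (p5 (⟨g, g1⟩ : Nm A.1) (by rw [← g2, orderOf_mk])).exists_le_sylow
    obtain ⟨n, rfl⟩ := exists_smul_eq (Nm A.1) P Q
    obtain ⟨E, hE, hEA⟩ : ∃ E ∈ fixedPoints P (Pt c), E ≠ A := by
      by_contra H
      push Not at H
      have h3 := P.isPGroup'.card_modEq_card_fixedPoints (Pt c)
      have h4 := Set.ncard_le_ncard (s := fixedPoints P (Pt c)) (t := {A}) H
      rw [Set.ncard_singleton, ← Nat.card_coe_set_eq] at h4
      rw [Nat.ModEq, v5] at h3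
      omega
    obtain rfl := f4 E hEA (hE ⟨⟨f, f1⟩, hP (mem_zpowers _)⟩)
    have hn : n • A = A := (pt_fix c n.1 A).2 n.2
    refine ⟨n, g4 _ (fun e => hEA (smul_left_cancel n (e.trans hn.symm))) ?_⟩
    obtain ⟨x, hx, e⟩ := hQ (mem_zpowers _)
    have h3 : x • E = E := hE ⟨x, hx⟩
    have h4 : n * x * n⁻¹ = ⟨g, g1⟩ := e
    change (⟨g, g1⟩ : Nm A.1) • n • E = n • E
    rw [← h4, mul_smul, mul_smul, inv_smul_smul, h3]
  have cH : ∀ A B : Pt c, A ≠ B → Nat.card (Nm A.1) =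
      (D.ncard - 1) * Nat.card (Nm A.1 ⊓ Nm B.1 : Subgroup G) := fun A B e => by
    have h1 : orbit (Nm A.1) B = {A}ᶜ := by
      ext E
      refine ⟨?_, fun H => tr1 A B E e (Ne.symm H)⟩
      rintro ⟨n, rfl⟩ H
      have h2 : n • A = A := (pt_fix c n.1 A).2 n.2
      exact e (smul_left_cancel n (h2.trans (Eq.symm H)))
    have h2 : stabilizer (Nm A.1) B = (Nm A.1 ⊓ Nm B.1).subgroupOf (Nm A.1) := by
      ext n
      exact (pt_fix c n.1 B).trans ⟨fun H => ⟨n.2, H⟩, fun H => H.2⟩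
    have h3 := (stabilizer (Nm A.1) B).index_mul_card
    rw [index_stabilizer, h1, h2, Set.ncard_compl, Set.ncard_singleton,
      Nat.card_congr (subgroupOfEquivOfLe inf_le_left).toEquiv] at h3
    exact h3.symm
  have cG : ∀ A : Pt c, Nat.card G = D.ncard * Nat.card (Nm A.1) := fun A => by
    have h1 : orbit G A = Set.univ := Set.eq_univ_of_forall fun E =>
      (c.tr _ A.2 E.1 E.2).imp fun g e => Subtype.ext e
    have h2 : stabilizer G A = Nm A.1 := by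
      ext n
      exact pt_fix c n A
    have h3 := (stabilizer G A).index_mul_card
    rw [index_stabilizer, h1, h2, Set.ncard_univ] at h3
    exact h3.symm
  have tr2 : ∀ A B A' B' : Pt c, A ≠ B → A' ≠ B' → ∃ g : G, g • A = A' ∧ g • B = B' :=
    fun A B A' B' e e' => by
      obtain ⟨g, hg⟩ := c.tr _ A.2 _ A'.2
      obtain rfl : g • A = A' := Subtype.ext hg
      obtain ⟨n, hn⟩ := tr1 _ (g • B) B' (fun H => e (smul_left_cancel g H)) e'
      exact ⟨n * g, by rw [mul_smul, (pt_fix c n.1 _).2 n.2], by rw [mul_smul]; exact hn⟩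
  have lp := h.lp _ A₀.2 _ B₀.2 fun e => hne (Subtype.ext e)
  refine ⟨h, fun A hA B hB A' hA' B' hB' e e' => ?_, v5, ?_, fun A hA B hB e =>
    cH ⟨A, hA⟩ ⟨B, hB⟩ fun e' => e (congrArg Subtype.val e'), fun A hA => cG ⟨A, hA⟩, ?_⟩
  · exact (tr2 ⟨A, hA⟩ ⟨B, hB⟩ ⟨A', hA'⟩ ⟨B', hB'⟩ (fun H => e (congrArg Subtype.val H))
      fun H => e' (congrArg Subtype.val H)).imp fun g H =>
        ⟨congrArg Subtype.val H.1, congrArg Subtype.val H.2⟩
  · obtain ⟨E, hE, hEL⟩ := h.out _ A₀.2 _ B₀.2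
    rw [← (b.la _ lp.iso).npts]
    exact Set.ncard_lt_ncard ⟨h.pts _ (Or.inl lp.iso) _ A₀.2 le_sup_left, fun H => hEL (H hE).1⟩
  · obtain ⟨f, s, hf⟩ := b.lc1 _ _ lp
    have h1 := card_subgroup_dvd_card (Nm (A₀.1 ⊔ B₀.1))
    rw [(b.lt _ _ f s lp (b.lc _ _ f s lp hf)).cM, cG A₀, cH _ _ hne, ← mul_assoc] at h1
    exact Nat.dvd_of_mul_dvd_mul_right Nat.card_pos h1

end Cfsg.Agent.H72.ElNt
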