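import Cfsg.Agent.H73.GagDefs
import Cfsg.Agent.H52.Fix
import Cfsg.Agent.H28.Transport
import Cfsg.Agent.H1.KOutA
import Cfsg.Agent.S2602

/-!
# Project GAG: the field automorphism map of a group normalising `SL₂(q)`
-/

set_option autoImplicit false

namespace Cfsg.Agent.H72.GagOut

open Subgroup Cfsg Cfsg.Agent.H73.Gag
open scoped MatrixGroups commutatorElement

universe u

theorem perfect_sl {F : Type*} [Field F] [Fintype F] (h : 4 ≤ Fintype.card F) :
    Group.IsPerfect SL(2, F) := by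
  obtain ⟨a, h1, h2⟩ := H82.exists_sq_ne_one (F := F) (by rwa [Nat.card_eq_fintype_card])
  exact ⟨Matrix.SL2.commutator_eq_top h1 h2⟩

theorem out : OutStmt.{u} := by
  intro H _ _ L hL F _ _ s a hs hF h4 ⟨e⟩
  have : Fact s.Prime := ⟨hs⟩
  have ha : 1 ≤ a := by
    rcases a with _ | a
    · simp at h4
    · omega
  obtain ⟨φ, -, -, hφ⟩ := S2602.result ha hF h4
  have hp : Group.IsPerfect L := by
    have := perfect_sl (hF ▸ h4)
    exact Group.IsPerfect.ofSurjective (f := e.symm.toMonoidHom) e.symm.surjective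
  have hLL : ⁅L, L⁆ = L := Subgroup.isPerfect_iff.1 hp
  let ι : H →* normalizer (L : Set H) :=
    (MonoidHom.id H).codRestrict _ fun x => by rw [normalizer_eq_top]; trivial
  let θ : H →* Out PSL(2, F) :=
    (H1.KO.outCongr (H28.centerQuotEquiv e)).toMonoidHom.comp ((H52.toOut L).comp ι)
  have hk : θ.ker = L ⊔ centralizer (L : Set H) := by
    ext x
    simp only [θ, MonoidHom.mem_ker, MonoidHom.comp_apply, MulEquiv.coe_toMonoidHom,
      EmbeddingLike.map_eq_one_iff]
    exact ⟨H52.mem_sup_centralizer_of_toOut_eq_one hLL _, H52.toOut_eq_one_of_mem (ι x)⟩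
  refine ⟨φ.comp θ, hk ▸ fun x hx => ?_, ?_⟩
  · rw [MonoidHom.mem_ker] at hx ⊢
    rw [MonoidHom.comp_apply, hx, map_one]
  · rw [← hk, ← hφ, relIndex_ker]
    refine card_dvd_of_le ?_
    rintro _ ⟨x, hx, rfl⟩
    exact hx

end Cfsg.Agent.H72.GagOut
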