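import Cfsg.Agent.H98.GbL
import Cfsg.Agent.H11.Inner

/-! Project GB: the `p`-regular parts of the twisted primitive elements of a series. -/

set_option autoImplicit false
open Cfsg Finset
open scoped MatrixGroups

namespace Cfsg.Agent.H72.GbRk1b

open Cfsg.Agent.H98.GB

universe u

/-- an orthogonal family that spans -/
theorem orth_span {G : Type*} [Group G] [Fintype G] {ι : Type*} [DecidableEq ι] (J : Finset ι)
    (f : ι → G → ℂ) (W : Submodule ℂ (G → ℂ)) (hW : Module.finrank ℂ W ≤ #J)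
    (hf : ∀ i ∈ J, f i ∈ W) (h0 : ∀ i ∈ J, ∀ j ∈ J, i ≠ j → classInner (f i) (f j) = 0)
    (h1 : ∀ i ∈ J, classInner (f i) (f i) ≠ 0) {w : G → ℂ} (hw : w ∈ W) {i : ι} (hi : i ∈ J)
    (h2 : ∀ j ∈ J, j ≠ i → classInner (f j) w = 0) : ∃ a : ℂ, w = a • f i := by
  have key : ∀ (a : J → ℂ) (j : J),
      classInner (∑ i : J, a i • f i) (f j) = a j * classInner (f j) (f j) := fun a j => by
    rw [H11.classInner_sum_left, sum_eq_single j (fun i _ ne => by
      rw [H11.classInner_smul_left, h0 _ i.2 _ j.2 (mt Subtype.ext ne), mul_zero])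
      (fun n => absurd (mem_univ _) n), H11.classInner_smul_left]
  have li : LinearIndependent ℂ fun i : J => f i := Fintype.linearIndependent_iff.2 fun a e j => by
    have := key a j
    rw [e, H11.classInner_zero_left] at this
    exact (mul_eq_zero.1 this.symm).resolve_right (h1 _ j.2)
  have sp : Submodule.span ℂ (Set.range fun i : J => f i) = W := by
    refine Submodule.eq_of_le_of_finrank_le (Submodule.span_le.2 ?_) ?_
    · rintro _ ⟨j, rfl⟩
      exact hf _ j.2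
    · rwa [finrank_span_eq_card li, Fintype.card_coe]
  obtain ⟨a, rfl⟩ := (Submodule.mem_span_range_iff_exists_fun ℂ).1 (sp ▸ hw)
  refine ⟨a ⟨i, hi⟩, sum_eq_single (⟨i, hi⟩ : J) (fun j _ ne => ?_) fun n => absurd (mem_univ _) n⟩
  have := key a j
  rw [(H11.classInner_eq_zero_comm _ _).1 (h2 _ j.2 fun e => ne (Subtype.ext e))] at this
  rw [(mul_eq_zero.1 this.symm).resolve_right (h1 _ j.2), zero_smul]

section
variable {Φ : Type} [Fintype Φ] [DecidableEq Φ]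

theorem mon_single {A : Type*} [CommRing A] (P : Φ → ℕ → A) (Γ : Φ) (μ : Multiset ℕ) :
    mon P (Pi.single Γ μ) = (μ.map (P Γ)).prod := by
  rw [mon, prod_eq_single Γ (fun φ _ ne => by simp [Pi.single_eq_of_ne ne])
    (fun n => absurd (mem_univ _) n), Pi.single_eq_same]

theorem wm_single (dg : Φ → ℕ) (Γ : Φ) (μ : Multiset ℕ) :
    wm dg (Pi.single Γ μ) = dg Γ * μ.sum := by
  rw [wm, sum_eq_single Γ (fun φ _ ne => by simp [Pi.single_eq_of_ne ne])
    (fun n => absurd (mem_univ _) n), Pi.single_eq_same]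

omit [Fintype Φ] in
theorem monOn_single {In : Φ → Prop} {Γ : Φ} (h : In Γ) {μ : Multiset ℕ} (hμ : ∀ r ∈ μ, 0 < r) :
    MonOn In (Pi.single Γ μ) := fun φ => by
  by_cases c : φ = Γ
  · subst c
    rw [Pi.single_eq_same]
    exact ⟨hμ, fun n => absurd h n⟩
  · rw [Pi.single_eq_of_ne c]
    exact ⟨fun r hr => absurd hr (Multiset.notMem_zero _), fun _ => rfl⟩

end

theorem rk_le (ha : CL1aStmt.{u}) (hb : CL1bStmt.{u}) (hK : BLKStmt.{u}) (hB : BASStmt.{u})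
    (hL : LABStmt.{u}) {F : Type u} [Field F] [Fintype F] [DecidableEq F] (C : Ctx F) {Γ : C.Φ}
    {k : ℕ} (hk : C.dg Γ * k ≤ C.n0) (l : GL (Fin (C.dg Γ * k)) F →* ℂˣ) :
    rk C.p (VS l (C.XC _ (C.Sup Γ))) ≤ H19.pn k := by
  have lab := hL F C
  have cl := (hK F C _ hk).2.2 Γ
  obtain ⟨b1, b2⟩ := hB F C _ hk _ cl
  have fin : {Λ | C.IsLab (C.dg Γ * k) Λ ∧ C.Bas Λ ∧ Λ ∈ C.Sup Γ}.Finite :=
    (lab.fin _).subset fun _ h => h.1
  have l1 : ∀ f : GL (Fin (C.dg Γ * k)) F → ℂ, lm 1 f = f := fun f => funext fun g => one_mul _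
  have e := hb _ C.p C.M C.hM 1 (by rw [orderOf_one, Nat.dvd_one]; exact C.hp.ne_one) _ cl C.Lb
    fin.toFinset (fun Λ => pRegularPart C.p (C.sC Λ _)) id (by rwa [fin.coe_toFinset])
    (by rwa [fin.coe_toFinset]) fun i hi => ⟨hi, l1 _⟩
  have off : ∀ Λ ∈ fin.toFinset, ∀ φ, φ ≠ Γ → Λ φ = range C.N := fun Λ hΛ φ ne => by
    obtain ⟨-, h2, h3⟩ := fin.mem_toFinset.1 hΛ
    by_cases c : C.Reg φ
    · exact h3 φ (by rw [c]; exact ne)
    · exact h2 φ c
  refine (ha _ C.p C.M C.hM l _ cl).trans (le_trans (Set.ncard_le_ncard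
    (fun i hi => And.intro hi.1 (l1 _)) (Set.toFinite _)) (e.le.trans ?_))
  have hN : k ≤ C.N :=
    ((Nat.le_mul_of_pos_left k (lab.dg_pos Γ)).trans hk).trans
      (Nat.le_mul_of_pos_left _ (Nat.succ_pos _))
  rw [← H19.card_Lam hN, ← Set.ncard_coe_finset]
  refine Set.ncard_le_ncard_of_injOn (fun Λ => Λ Γ) (fun Λ hΛ => ?_)
    (fun Λ hΛ Λ' hΛ' e => funext fun φ => ?_) (finite_toSet _)
  · obtain ⟨h1, h2⟩ := (fin.mem_toFinset.1 hΛ.1).1
    refine mem_coe.2 (H19.mem_Lam'.2 ⟨h1 Γ, ?_⟩)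
    rw [wt, sum_eq_single Γ (fun φ _ ne => by rw [off Λ hΛ.1 φ ne, H19.wtS_range, mul_zero])
      fun n => absurd (mem_univ _) n] at h2
    exact Nat.eq_of_mul_eq_mul_left (lab.dg_pos Γ) h2
  · by_cases c : φ = Γ
    · rw [c]
      exact e
    · rw [off Λ hΛ.1 φ c, off Λ' hΛ'.1 φ c]

theorem rk1b (hF : FOCKStmt.{u}) (ha : CL1aStmt.{u}) (hb : CL1bStmt.{u}) (hT : MORTHStmt.{u})
    (hP : PIMStmt.{u}) (hD : DELCStmt.{u}) (hK : BLKStmt.{u}) (hB : BASStmt.{u})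
    (hR : RK1aStmt.{u}) (hL : LABStmt.{u}) : RK1bStmt.{u} := by
  intro F _ _ _ C c HH In P tw Γ rg hIn j k hk x hx hE
  have lab := hL F C
  have fk := hF F _ (HH j)
  obtain ⟨T, t1, t2, t3, t4, -, -⟩ := hP F _ (HH j) C.p C.hp C.hpF
  obtain ⟨-, -, -, d4, -, -, d7⟩ := hD F C.ψ C.hψ
  have k0 : 0 < k := Nat.pos_of_mul_pos_left hx.2.1
  have iΓ : In Γ := hIn Γ rg
  let Y : C.Φ → ℕ → (HH j).A := fun φ r => T (P φ r j)
  have pr : ∀ r, 0 < r → (HH j).Pr (C.dg Γ * r) (Y Γ r) := fun r hr => by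
    change (HH j).Pr _ (T _)
    rw [t1]
    exact t4 _ _ (tw.pr Γ r j iΓ hr)
  have nz : ∀ r, 0 < r → (HH j).ip (C.dg Γ * r) (Y Γ r) (Y Γ r) ≠ 0 := fun r hr e => by
    have a := tw.del Γ r j iΓ hr
    rw [← d4 _ C.p C.hp C.hpF, ← t2, ← t1, show T (P Γ r j) = 0 from fk.ip_self (pr r hr).1 e,
      map_zero, ← zero_smul ℂ (0 : Fn F), Pi.smul_apply, (d7 _ _ 0 _).2, zero_mul] at a
    exact pow_ne_zero _ (neg_ne_zero.2 one_ne_zero) a.symm
  have sys : (HH j).Sys C.dg (fun φ => φ = Γ) C.n0 Y 0 1 :=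
    ⟨lab.dg_pos, by rintro _ r rfl hr _; exact pr r hr, fk.hg_one, fun φ r _ hr _ =>
      fk.D_lt _ fk.hg_one (Nat.mul_pos (lab.dg_pos φ) hr)⟩
  have gr : (HH j).Gram C.dg (fun φ => φ = Γ) C.n0 Y
      fun φ r => (HH j).ip (C.dg φ * r) (Y φ r) (Y φ r) := by
    rintro _ r _ r' rfl rfl _ hr' _ _
    by_cases e : r = r'
    · rw [if_pos ⟨rfl, e⟩, e]
    · rw [if_neg fun h => e h.2, Hall.ip, (pr r' hr').1 _
        (mt (Nat.eq_of_mul_eq_mul_left (lab.dg_pos _)) e), H11.classInner_zero_right]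
  have mo := fun (μ μ' : Multiset ℕ) (h : ∀ r ∈ μ, 0 < r) (h' : ∀ r ∈ μ', 0 < r)
      (w : μ.sum ≤ k) (w' : μ'.sum ≤ k) => hT F _ (HH j) C.Φ C.dg _ C.n0 Y 0 1 0 1 _ sys sys gr
    (Pi.single Γ μ) (Pi.single Γ μ') (monOn_single (In := fun φ => φ = Γ) rfl h)
    (monOn_single (In := fun φ => φ = Γ) rfl h')
    (by rw [wm_single]; exact (Nat.mul_le_mul_left _ w).trans hk)
    (by rw [wm_single]; exact (Nat.mul_le_mul_left _ w').trans hk)
  simp only [wm_single, mon_single, zero_add, one_mul] at mo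
  have mem : ∀ z : (HH j).A, InE (C.XC _ (C.Sup Γ)) ((HH j).ev z (C.dg Γ * k)) →
      (HH j).ev (T z) (C.dg Γ * k) ∈ Submodule.span ℂ (pRegularPart C.p ''
        VS (dl (C.eta c ^ j) (C.dg Γ * k)) (C.XC _ (C.Sup Γ))) := fun z hz =>
    Submodule.subset_span ⟨_, ⟨(HH j).tw z _, hz⟩, by rw [t1, t2]⟩
  obtain ⟨a, e⟩ := orth_span (H19.Par k) (fun μ => (HH j).ev (μ.map (Y Γ)).prod (C.dg Γ * k)) _
    (rk_le ha hb hK hB hL C hk (dl (C.eta c ^ j) _))
    (fun μ hμ => by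
      obtain ⟨h1, h2⟩ := H19.mem_Par.1 hμ
      have := mem _ ((hR F C c HH In P tw Γ hIn j _ hk).1 (Pi.single Γ μ) 
        (monOn_single (In := fun φ => C.lp φ = Γ) rg h2)
        (by rw [wm_single, h1]))
      rwa [mon_single, map_multiset_prod, Multiset.map_map] at this)
    (fun μ hμ μ' hμ' ne => by
      obtain ⟨h1, h2⟩ := H19.mem_Par.1 hμ
      obtain ⟨h3, h4⟩ := H19.mem_Par.1 hμ'
      have := (mo μ μ' h2 h4 h1.le h3.le).2
      rwa [if_neg fun e => ne (by simpa using congrFun e Γ), h1] at this)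
    (fun μ hμ => by
      obtain ⟨h1, h2⟩ := H19.mem_Par.1 hμ
      have := (mo μ μ h2 h2 h1.le h1.le).2
      rw [if_pos rfl, h1, fk.ip_one, one_mul] at this
      refine this.trans_ne (prod_ne_zero_iff.2 fun φ _ => mul_ne_zero
        (Multiset.prod_ne_zero fun h => ?_) (prod_ne_zero_iff.2 fun r _ =>
          Nat.cast_ne_zero.2 (Nat.factorial_ne_zero _)))
      obtain ⟨r, hr, e⟩ := Multiset.mem_map.1 h
      by_cases c : φ = Γ
      · subst c
        rw [Pi.single_eq_same] at hr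
        exact nz r (h2 r hr) e
      · rw [Pi.single_eq_of_ne c] at hr
        exact Multiset.notMem_zero _ hr)
    (mem x hE) (i := {k}) (H19.mem_Par.2 ⟨Multiset.sum_singleton _, fun r hr => by
      rw [Multiset.mem_singleton.1 hr]; exact k0⟩)
    (fun μ hμ ne => by
      obtain ⟨h1, h2⟩ := H19.mem_Par.1 hμ
      obtain ⟨r, hr⟩ := Multiset.exists_mem_of_ne_zero (s := μ) (by
        rintro rfl
        exact k0.ne h1)
      obtain ⟨ν, rfl⟩ := Multiset.exists_cons_of_mem hr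
      have h3 : ∀ s ∈ ν, 0 < s := fun s hs => h2 s (Multiset.mem_cons_of_mem hs)
      rw [Multiset.sum_cons] at h1
      have h4 : 0 < ν.sum := Nat.pos_of_ne_zero fun e => by
        have : ν = 0 := Multiset.eq_zero_of_forall_notMem fun s hs =>
          (h3 s hs).not_ge ((Multiset.le_sum_of_mem hs).trans e.le)
        subst this
        exact ne (by rw [← h1]; rfl)
      rw [Multiset.map_cons, Multiset.prod_cons, t1]
      exact (fk.pr_iff hx.2.1 (t3 _ _ hx.1)).1 (t4 _ _ hx) _ _ _ _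
        (Nat.mul_pos (lab.dg_pos _) (h2 r hr)) (Nat.mul_pos (lab.dg_pos _) h4)
        (by rw [← mul_add, h1]) (pr r (h2 r hr)).1 (mo ν ν h3 h3 (by omega) (by omega)).1)
  refine ⟨a, (HH j).inj (funext fun n => ?_)⟩
  rw [map_smul, Pi.smul_apply]
  by_cases c : n = C.dg Γ * k
  · subst c
    rw [← t1, e, Multiset.map_singleton, Multiset.prod_singleton, ← t1]
  · rw [t3 _ _ hx.1 n c, t3 _ _ (tw.pr Γ k j iΓ k0).1 n c, smul_zero]

end Cfsg.Agent.H72.GbRk1b
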