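import Mathlib
import Cfsg.Agent.H99.HNDefs

/-!
# Project HN3: piece TY
-/

set_option autoImplicit false

namespace Cfsg.Agent.H72.HN

open Cfsg Subgroup H99.HN H99.HN.M4
open Cfsg.Agent.H4.J2S (F4)
open scoped Pointwise

universe u

theorem massoc (X Y Z : M4) : X * Y * Z = X * (Y * Z) := by
  ext <;> (change _ * _ + _ * _ = _ * _ + _ * _; simp only [HMul.hMul, Mul.mul]; simp only [F4.mul_eq]; ring)

theorem mone : ∀ X : M4, X * 1 = X := by decide +kernel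
theorem onem : ∀ X : M4, 1 * X = X := by decide +kernel
theorem tw_tw : ∀ X : M4, tw true (tw true X) = X := by decide +kernel
theorem tw_one : tw true 1 = 1 := by decide +kernel
theorem det_one : det 1 = 1 := by decide +kernel
theorem det_tw : ∀ X : M4, X.det = 1 → (tw true X).det = 1 := by decide +kernel
theorem det_adj : ∀ X : M4, X.det = 1 → X.adj.det = 1 ∧ X.adj * X = 1 ∧ X * X.adj = 1 := by
  decide +kernel
theorem tw_inv : ∀ X : M4, X * X = 1 → X ≠ 1 → tw true X * tw true X = 1 ∧ tw true X ≠ 1 := by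
  decide +kernel

theorem tw_mul (X Y : M4) : tw true (X * Y) = tw true Y * tw true X := by
  ext <;> (change F4.bar (_ * _ + _ * _) = _ * _ + _ * _
           simp only [F4.bar_add, F4.bar_mul, tw]; ring)

theorem det_mul (X Y : M4) : (X * Y).det = X.det * Y.det := by
  change (_ * _ + _ * _) * (_ * _ + _ * _) + (_ * _ + _ * _) * (_ * _ + _ * _) =
    (_ * _ + _ * _) * (_ * _ + _ * _)
  linear_combination F4.two (X.a * X.c * Y.a * Y.b) + F4.two (X.b * X.d * Y.c * Y.d)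

theorem eq_of_add {X Y : M4} (h : X + Y = 0) : X = Y := by
  have k : ∀ a b : F4, a + b = 0 → a = b := by decide
  exact M4.ext (k _ _ (congrArg M4.a h)) (k _ _ (congrArg M4.b h)) (k _ _ (congrArg M4.c h))
    (k _ _ (congrArg M4.d h))

theorem add_self : ∀ X : M4, X + X = 0 := by decide +kernel

/-- the standard involution -/
def v0 : M4 := ⟨1, 1, 0, 1⟩

theorem triv : ∀ C : M4, C.det = 1 → ∀ D : M4, D.det = 1 →
    C * ⟨1, 0, 0, 0⟩ * D = ⟨1, 0, 0, 0⟩ → C * ⟨0, 0, 0, 1⟩ * D = ⟨0, 0, 0, 1⟩ →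
    C * 1 * D = 1 → C * ⟨0, 1, 0, 0⟩ * D = ⟨0, 1, 0, 0⟩ → C = 1 ∧ D = 1 := by decide +kernel

theorem cjL : ∀ A : M4, A.det = 1 → A * A = 1 → A ≠ 1 → ∃ P : M4, P.det = 1 ∧ P * A = v0 * P := by
  decide +kernel

theorem cjR : ∀ A : M4, A.det = 1 → A * A = 1 → A ≠ 1 → ∃ P : M4, P.det = 1 ∧ A * P = P * v0 := by
  decide +kernel

theorem fx1 : ∀ X : M4, v0 * tw false X * 1 = X → ∃ Y, X = Y + v0 * tw false Y * 1 := by
  decide +kernel
theorem fx2 : ∀ X : M4, 1 * tw true X * 1 = X → ∃ Y, X = Y + 1 * tw true Y * 1 := by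
  decide +kernel
theorem fx3 : ∀ X : M4, v0 * tw false X * v0 = X → ∃ Y, X = Y + v0 * tw false Y * v0 := by
  decide +kernel

variable {G : Type u} [Group G] {U : HB G} {π : G → M4}

theorem cjE {g e : G} (hg : g ∈ U.L) (he : e ∈ U.E) : g * e * g⁻¹ ∈ U.E :=
  (mem_normalizer_iff.1 hg.2 e).1 he

theorem cenu {g c : G} (hg : g ∈ U.L) (hc : c ∈ zpowers U.u) : g * c = c * g := by
  obtain ⟨n, rfl⟩ := hc
  exact (Commute.zpow_right (mem_centralizer_singleton_iff.1 hg.1) n).eq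

theorem act_conj {m r : G} (hm : m ∈ U.L) (hr : r ∈ U.L) {P Q A B A' B' : M4} {c b b' : Bool}
    (h1 : U.Act π m P Q c) (h2 : U.Act π r A B b)
    (h : ∀ X, P * tw c (A * tw b X * B) * Q = A' * tw b' (P * tw c X * Q) * B') :
    U.Act π (m * r * m⁻¹) A' B' b' := fun e he => by
  have h3 := cjE (inv_mem hm) he
  have h4 := h1 _ h3
  rw [show m * (m⁻¹ * e * m⁻¹⁻¹) * m⁻¹ = e by group] at h4
  rw [show m * r * m⁻¹ * e * (m * r * m⁻¹)⁻¹ = m * (r * (m⁻¹ * e * m⁻¹⁻¹) * r⁻¹) * m⁻¹ by group,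
    h1 _ (cjE hr h3), h2 _ h3, h, ← h4]

/-- A conjugate acts in the given way. -/
def To (U : HB G) (π : G → M4) (g : G) (A B : M4) (b : Bool) : Prop :=
  ∃ m ∈ U.L, U.Act π (m * g * m⁻¹) A B b

theorem key0 (ef : U.EF) (md : U.MD π) (ls : U.LS π) {g r : G} (hg : g ∈ U.L) (hr : r ∈ U.L)
    (g2 : g * g ∈ zpowers U.u) (r2 : r * r ∈ zpowers U.u) {A B : M4} {b : Bool}
    (h1 : U.Act π g A B b) (h2 : U.Act π r A B b)
    (fx : ∀ X, A * tw b X * B = X → ∃ Y, X = Y + A * tw b Y * B) :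
    ∃ m ∈ U.L, ∃ c ∈ zpowers U.u, g = m * r * m⁻¹ * c := by
  have ha : g * r⁻¹ ∈ U.E := ls.ker _ (mul_mem hg (inv_mem hr)) fun e he => by
    have h3 := cjE (inv_mem hr) he
    have h4 := h2 _ h3
    rw [show r * (r⁻¹ * e * r⁻¹⁻¹) * r⁻¹ = e by group] at h4
    rw [show g * r⁻¹ * e * (g * r⁻¹)⁻¹ = g * (r⁻¹ * e * r⁻¹⁻¹) * g⁻¹ by group, h1 _ h3, ← h4,
      mone, onem]
    rfl
  have inv : ∀ e ∈ U.E, π e⁻¹ = π e := fun e he => eq_of_add (by
    rw [← md.add _ (inv_mem he) _ he, inv_mul_cancel]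
    exact (md.ker 1 (one_mem _)).2 (one_mem _))
  have h3 : π (g * r⁻¹) + π (r * (g * r⁻¹) * r⁻¹) = 0 := by
    rw [← md.add _ ha _ (cjE hr ha), md.ker _ (mul_mem ha (cjE hr ha))]
    have := mul_mem g2 (inv_mem r2)
    convert this using 1
    group
  rw [h2 _ ha] at h3
  obtain ⟨Y, hY⟩ := fx _ (eq_of_add h3).symm
  obtain ⟨e, he, rfl⟩ := md.sur Y
  have h4 := mul_mem he (cjE hr (inv_mem he))
  have h5 : (e * (r * e⁻¹ * r⁻¹))⁻¹ * (g * r⁻¹) ∈ zpowers U.u := by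
    rw [← md.ker _ (mul_mem (inv_mem h4) ha), md.add _ (inv_mem h4) _ ha, inv _ h4,
      md.add _ he _ (cjE hr (inv_mem he)), h2 _ (inv_mem he), inv _ he, ← hY, add_self]
  refine ⟨e, ef.EL he, _, h5, ?_⟩
  have h6 := cenu hr h5
  have h7 := cenu (inv_mem (ef.EL he)) h5
  generalize hc : (e * (r * e⁻¹ * r⁻¹))⁻¹ * (g * r⁻¹) = c at h6 h7
  rw [inv_mul_eq_iff_eq_mul, mul_inv_eq_iff_eq_mul] at hc
  rw [hc, mul_assoc _ c, ← h6]
  group

theorem sq_conj {g m : G} (hm : m ∈ U.L) (g2 : g * g ∈ zpowers U.u) :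
    m * g * m⁻¹ * (m * g * m⁻¹) ∈ zpowers U.u := by
  rwa [show m * g * m⁻¹ * (m * g * m⁻¹) = m * (g * g) * m⁻¹ by group, cenu hm g2,
    mul_inv_cancel_right]

theorem key (ef : U.EF) (md : U.MD π) (ls : U.LS π) {g r : G} (hg : g ∈ U.L) (hr : r ∈ U.L)
    (g2 : g * g ∈ zpowers U.u) (r2 : r * r ∈ zpowers U.u) {A B : M4} {b : Bool}
    (h1 : To U π g A B b) (h2 : To U π r A B b)
    (fx : ∀ X, A * tw b X * B = X → ∃ Y, X = Y + A * tw b Y * B) :
    ∃ m ∈ U.L, ∃ c ∈ zpowers U.u, g = m * r * m⁻¹ * c := by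
  obtain ⟨k, hk, h1⟩ := h1
  obtain ⟨l, hl, h2⟩ := h2
  obtain ⟨m, hm, c, hc, e⟩ := key0 ef md ls (mul_mem (mul_mem hk hg) (inv_mem hk))
    (mul_mem (mul_mem hl hr) (inv_mem hl)) (sq_conj hk g2) (sq_conj hl r2) h1 h2 fx
  refine ⟨k⁻¹ * m * l, mul_mem (mul_mem (inv_mem hk) hm) hl, c, hc, ?_⟩
  calc g = k⁻¹ * (k * g * k⁻¹) * k := by group
    _ = k⁻¹ * (m * (l * r * l⁻¹) * m⁻¹) * (c * k) := by rw [e]; group
    _ = _ := by rw [← cenu hk hc]; group

theorem to1 (md : U.MD π) {g : G} (hg : g ∈ U.L) {A : M4} (d : A.det = 1) (a : A * A = 1)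
    (n : A ≠ 1) (h : U.Act π g A 1 false) : To U π g v0 1 false := by
  obtain ⟨P, hP, e⟩ := cjL A d a n
  obtain ⟨m, hm, h1⟩ := md.ex P 1 hP det_one
  exact ⟨m, hm, act_conj hm hg h1 h fun X => by
    simp only [tw, mone]; rw [← massoc, e, massoc]⟩

theorem to3 (md : U.MD π) {g : G} (hg : g ∈ U.L) {A B : M4} (d : A.det = 1) (a : A * A = 1)
    (n : A ≠ 1) (d' : B.det = 1) (a' : B * B = 1) (n' : B ≠ 1) (h : U.Act π g A B false) :
    To U π g v0 v0 false := by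
  obtain ⟨P, hP, e⟩ := cjL A d a n
  obtain ⟨Q, hQ, e'⟩ := cjR B d' a' n'
  obtain ⟨m, hm, h1⟩ := md.ex P Q hP hQ
  exact ⟨m, hm, act_conj hm hg h1 h fun X => by
    simp only [tw, massoc]; rw [e', ← massoc, e, massoc]⟩

theorem σL (ef : U.EF) : U.σ ∈ U.L := ef.nA σ0 (by decide +kernel)
theorem wL (ef : U.EF) : U.w ∈ U.L := ef.nA w0 (by decide +kernel)

theorem nf (ef : U.EF) (md : U.MD π) (ls : U.LS π) {g : G} (hg : g ∈ U.L) (hE : g ∉ U.E)
    (g2 : g * g ∈ zpowers U.u) : To U π g v0 1 false ∨ To U π g 1 1 true ∨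
      ∃ A B : M4, A.det = 1 ∧ B.det = 1 ∧ A * A = 1 ∧ B * B = 1 ∧ A ≠ 1 ∧ B ≠ 1 ∧
        U.Act π g A B false := by
  obtain ⟨A, B, b, dA, dB, h⟩ := ls.all g hg
  have sq : ∀ X, A * tw b (A * tw b X * B) * B = X := fun X => by
    obtain ⟨e, he, rfl⟩ := md.sur X
    rw [← h e he, ← h _ (cjE hg he), show g * (g * e * g⁻¹) * g⁻¹ = g * g * e * (g * g)⁻¹ by group,
      ← cenu (ef.EL he) g2, mul_inv_cancel_right]
  cases b
  · have k : ∀ X, A * A * X * (B * B) = X := fun X => by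
      simpa only [tw, massoc] using sq X
    obtain ⟨a, b⟩ := triv (A * A) (by rw [det_mul, dA, mul_one]) (B * B)
      (by rw [det_mul, dB, mul_one]) (k _) (k _) (k _) (k _)
    by_cases nB : B = 1
    · subst nB
      exact Or.inl (to1 md hg dA a (by rintro rfl; exact hE (ls.ker g hg h)) h)
    by_cases nA : A = 1
    · subst nA
      have h1 : U.Act π (U.σ * g * U.σ⁻¹) (tw true B) 1 false :=
        act_conj (σL ef) hg md.aσ h fun X => by
          simp only [mone, onem]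
          exact tw_mul X B
      obtain ⟨m, hm, h2⟩ := to1 md (mul_mem (mul_mem (σL ef) hg) (inv_mem (σL ef))) (det_tw B dB)
        (tw_inv B b nB).1 (tw_inv B b nB).2 h1
      exact Or.inl ⟨m * U.σ, mul_mem hm (σL ef), by
        rwa [show m * U.σ * g * (m * U.σ)⁻¹ = m * (U.σ * g * U.σ⁻¹) * m⁻¹ by group]⟩
    exact Or.inr (Or.inr ⟨A, B, dA, dB, a, b, nA, nB, h⟩)
  · have k : ∀ X, A * tw true B * X * (tw true A * B) = X := fun X => by
      simpa only [tw_mul, tw_tw, massoc] using sq X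
    obtain ⟨-, b⟩ := triv (A * tw true B) (by rw [det_mul, dA, det_tw B dB, mul_one])
      (tw true A * B) (by rw [det_mul, dB, det_tw A dA, mul_one]) (k _) (k _) (k _) (k _)
    obtain ⟨a1, a2, a3⟩ := det_adj A dA
    obtain ⟨m, hm, h1⟩ := md.ex A.adj 1 a1 det_one
    have e : tw true A.adj = B := by
      rw [← mone (tw true A.adj), ← b, ← massoc, ← tw_mul, a3, tw_one, onem]
    refine Or.inr (Or.inl ⟨m, hm, act_conj hm hg h1 h fun X => ?_⟩)
    change A.adj * (A * tw true X * B) * 1 = 1 * tw true (A.adj * X * 1) * 1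
    rw [mone, mone, mone, onem, tw_mul, e, massoc, ← massoc A.adj, a2, onem]

theorem ty : TYStmt.{u} := by
  intro G _ _ U π cl ef md ls
  have hu : U.u * U.u = 1 := by
    rw [HB.u, ← map_mul, show u0 * u0 = 1 by decide +kernel, map_one]
  have u1 : U.u ≠ 1 := fun h => absurd (U.inj (h.trans (map_one _).symm)) (by decide +kernel)
  have d2 : U.d * U.d = U.u := by rw [HB.d, ← map_mul, H67.T3.slF_sq, U.ιu, HB.u]
  have σ2 : U.σ * U.σ = 1 := by
    rw [HB.σ, ← map_mul, show σ0 * σ0 = 1 by decide +kernel, map_one]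
  have w2 : U.w * U.w = 1 := by
    rw [HB.w, ← map_mul, show w0 * w0 = 1 by decide +kernel, map_one]
  have zp : ∀ c ∈ zpowers U.u, c = 1 ∨ c = U.u := by
    rintro _ ⟨n, rfl⟩
    have h2 : U.u ^ (2 : ℤ) = 1 := by rw [zpow_two, hu]
    obtain ⟨k, rfl | rfl⟩ := Int.even_or_odd' n
    · exact Or.inl (by simp only [zpow_mul, h2, one_zpow])
    · exact Or.inr (by simp only [zpow_add, zpow_mul, h2, one_zpow, zpow_one, one_mul])
  have td : To U π U.d v0 1 false := by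
    obtain ⟨A, a, b, c, h⟩ := md.ad
    exact to1 md ef.nd a b c h
  have tσ : To U π U.σ 1 1 true := ⟨1, one_mem _, by simpa using md.aσ⟩
  have kd := fun {g} hg g2 h => key (g := g) ef md ls hg ef.nd g2 (d2 ▸ mem_zpowers _) h td fx1
  have kσ := fun {g} hg g2 h => key (g := g) ef md ls hg (σL ef) g2 (σ2 ▸ one_mem _) h tσ fx2
  have wE : U.w ∉ U.E := fun h => by
    have h1 := ef.sq _ (mul_mem (cjE (ef.nA c4 (by decide +kernel)) h) (inv_mem h))
    rw [HB.w, ← map_inv, ← map_inv, ← map_mul, ← map_mul, ← map_mul, ← map_mul] at h1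
    rcases zp _ h1 with e | e
    · exact absurd (U.inj (e.trans (map_one _).symm)) (by decide +kernel)
    · exact absurd (U.inj e) (by decide +kernel)
  have cj : ∀ a b : A12, (∃ γ, γ * a * γ⁻¹ = b) → IsConj (U.ψ a) (U.ψ b) := fun a b h =>
    U.ψ.map_isConj (isConj_iff.2 h)
  have aw : ∃ A B : M4, A.det = 1 ∧ B.det = 1 ∧ A * A = 1 ∧ B * B = 1 ∧ A ≠ 1 ∧ B ≠ 1 ∧
      U.Act π U.w A B false := by
    rcases nf ef md ls (wL ef) wE (w2 ▸ one_mem _) with h | h | h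
    · obtain ⟨m, hm, c, hc, e⟩ := kd (wL ef) (w2 ▸ one_mem _) h
      have h1 := cenu (mul_mem (mul_mem hm ef.nd) (inv_mem hm)) hc
      have h2 : c * c = 1 := by rcases zp c hc with rfl | rfl <;> simp [hu]
      have h3 : U.w * U.w = m * (U.d * U.d) * m⁻¹ * (c * c) := by
        rw [e, mul_assoc _ c, ← mul_assoc c, ← h1]; group
      rw [w2, d2, h2, cenu hm (mem_zpowers _), mul_one, mul_inv_cancel_right] at h3
      exact absurd h3.symm u1
    · obtain ⟨m, hm, c, hc, e⟩ := kσ (wL ef) (w2 ▸ one_mem _) h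
      have h1 : IsConj U.t U.σ := cj _ _ ⟨dd 2 9 3 11 * dd 0 8 1 10, by decide +kernel⟩
      refine absurd (h1.trans ?_) cl.nc
      rcases zp c hc with rfl | rfl
      · exact (isConj_iff.2 ⟨m, show _ = U.ψ w0 from (e.trans (mul_one _)).symm⟩).trans
          (cj _ _ ⟨dd 4 8 5 9 * dd 0 1 0 3, by decide +kernel⟩)
      · refine (isConj_iff.2 ⟨m, show _ = U.ψ (w0 * u0) from ?_⟩).trans
          (cj _ _ ⟨dd 6 8 7 9 * dd 0 1 0 2, by decide +kernel⟩)
        rw [map_mul, ← HB.w, ← HB.u, e, mul_assoc _ U.u, hu, mul_one]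
    · exact h
  refine ⟨fun g hg hE g2 => ?_, aw⟩
  rcases nf ef md ls hg hE g2 with h | h | ⟨A, B, a, b, c, d, e, f, h⟩
  · obtain ⟨m, hm, c, hc, e⟩ := kd hg g2 h
    exact ⟨m, hm, c, hc, Or.inl e⟩
  · obtain ⟨m, hm, c, hc, e⟩ := kσ hg g2 h
    exact ⟨m, hm, c, hc, Or.inr (Or.inl e)⟩
  · obtain ⟨A', B', a', b', c', d', e', f', h'⟩ := aw
    obtain ⟨m, hm, c, hc, e⟩ := key ef md ls hg (wL ef) g2 (w2 ▸ one_mem _)
      (to3 md hg a c e b d f h) (to3 md (wL ef) a' c' e' b' d' f' h') fx3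
    exact ⟨m, hm, c, hc, Or.inr (Or.inr e)⟩

end Cfsg.Agent.H72.HN
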