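import Cfsg.Agent.H50.L81Defs
import Cfsg.Agent.H80.FvEnt
import Cfsg.Agent.H40.FvComm

/-! Project L81: four commuting fundamental subgroups acting on the centraliser of a torus. -/

set_option autoImplicit false

namespace Cfsg.Agent.H72.L81Gwa

open Equiv Cfsg.Lie H37 H40 H34 H29 Module Finset H50.E83 Cfsg.Agent.H50.L81
open H42.Fv (al cp Sum2 act_eq_ac xg_eq al_neg al_smul act_mul)
open scoped Matrix

section
variable {ι Φ : Type*} [Fintype ι] [DecidableEq ι] (R : RS ι Φ)

theorem mixed (t : Φ) (a b : ι) (h1 : 0 < R.rc t a) (h2 : R.rc t b < 0) : False :=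
  R.not_pos_of_coord_neg h2 (R.pos_of_coord_pos h1)

theorem nos (a b : ι) (h : a = b ∨ R.A a b = 0) (t : Φ) (ε δ : ℤ) (hε : ε = 1 ∨ ε = -1)
    (hδ : δ = 1 ∨ δ = -1) (e : R.rc t = ε • Pi.single a 1 + δ • Pi.single b 1) : False := by
  by_cases hab : a = b
  · subst hab
    have e1 : R.rc t a = ε + δ := by rw [e]; simp
    rcases R.eq_simple_or_of_support (r := t) (i := a) (fun j hj => by rw [e]; simp [hj]) with h | h
    · rw [h, R.rc_simple, Pi.single_eq_same] at e1
      omega
    · rw [h, R.rc_neg, R.rc_simple, Pi.neg_apply, Pi.single_eq_same] at e1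
      omega
  · have hA := h.resolve_left hab
    have e1 : R.rc t a = ε := by rw [e]; simp [hab]
    have e2 : R.rc t b = δ := by rw [e]; simp [Ne.symm hab]
    have e3 : R.wt t a = 2 * ε := by
      rw [RS.wt, e, map_add, map_smul, map_smul, R.wtv_single, R.wtv_single, R.A_self, hA]
      simp [mul_comm]
    have e4 : R.rc (R.refl a t) a = -ε := by rw [R.rc_refl_self, e1, e3]; ring
    have e5 : R.rc (R.refl a t) b = δ := by rw [R.rc_refl_of_ne (Ne.symm hab), e2]
    rcases hε with rfl | rfl <;> rcases hδ with rfl | rfl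
    · exact mixed R _ b a (by omega : 0 < R.rc (R.refl a t) b) (by omega)
    · exact mixed R t a b (by omega) (by omega)
    · exact mixed R t b a (by omega) (by omega)
    · exact mixed R _ a b (by omega : 0 < R.rc (R.refl a t) a) (by omega)

end

/-- `r` is one of the two roots of the `i`-th factor -/
def In (i : Fin 4) (r : Rt) : Prop := r = aa i ∨ r = ng (aa i)

/-- the index of the simple root -/
def ix (i : Fin 4) : Fin chevE8.rank := (![1, 2, 6, 4] i : Fin 8)

theorem aa_eq (i : Fin 4) : aa i = C8.R.simple (ix i) := rfl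

theorem In.rc {i : Fin 4} {r : Rt} (h : In i r) : ∃ ε : ℤ, (ε = 1 ∨ ε = -1) ∧
    C8.R.rc r = ε • Pi.single (ix i) 1 := by
  rcases h with rfl | rfl
  · exact ⟨1, Or.inl rfl, by rw [aa_eq, C8.R.rc_simple, one_smul]⟩
  · exact ⟨-1, Or.inr rfl, by rw [C8.R.rc_neg, aa_eq, C8.R.rc_simple, neg_smul, one_smul]⟩

theorem In.ng {i : Fin 4} {r : Rt} (h : In i r) : In i (ng r) := by
  rcases h with rfl | rfl
  · exact Or.inr rfl
  · exact Or.inl (C8.R.neg_neg _)

theorem nosum (D : DateStmt) {i j : Fin 4} {r s : Rt} (hr : In i r) (hs : In j s) (t : Rt) :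
    ¬ Sum2 r s t := by
  intro h
  obtain ⟨ε, h1, h2⟩ := hr.rc
  obtain ⟨δ, h3, h4⟩ := hs.rc
  refine nos C8.R (ix i) (ix j) ?_ t ε δ h1 h3 (h.trans (by rw [h2, h4]))
  by_cases hij : i = j
  · exact Or.inl (by rw [hij])
  · exact Or.inr ((C8.R.pair_simple_simple _ _).symm.trans (D.2.1 i j hij).1)

theorem In.ne (D : DateStmt) {i j : Fin 4} {r s : Rt} (hr : In i r) (hs : In j s) (hij : i ≠ j) :
    r ≠ s := by
  obtain ⟨-, h1, h2⟩ := D.2.1 i j hij
  rcases hr with rfl | rfl <;> rcases hs with rfl | rfl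
  · exact h1
  · exact h2
  · exact fun e => h2 (C8.R.neg_eq_iff.1 e)
  · exact fun e => h1 (C8.R.neg_inj.1 e)

theorem In.pair (D : DateStmt) {i j : Fin 4} {r : Rt} (hr : In i r) (hij : j ≠ i) :
    C8.R.pair (aa j) r = 0 := by
  rcases hr with rfl | rfl
  · exact (D.2.1 j i hij).1
  · rw [C8.R.pair_neg_right, (D.2.1 j i hij).1, neg_zero]

theorem comm_xx {r s : Rt} (h1 : r ≠ s) (h2 : r ≠ ng s) (h : ∀ t, ¬ Sum2 s r t) (t u : K) :
    Commute (xx s u) (xx r t) := by
  refine Cert.commute_xg (C := C8) ⟨s.2, r.2, fun e => h1 (Fin.ext e),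
    fun e => h2 (Fin.ext (e.trans (C8.neg_val s).symm)), ?_⟩ u t
  refine List.eq_nil_iff_forall_not_mem.2 fun c hc => ?_
  obtain ⟨h3, -, -, h4⟩ := C8.commTerms_spec s.2 r.2 c hc
  have h5 := C8.rc_of_cartan (k := ⟨c.1, h3⟩) h4
  rw [H40.FvComm.short_E8.terms hc] at h5
  exact h ⟨c.1, h3⟩ (by simpa [Sum2] using h5)

theorem ee_inr (r s : Rt) : ee r (Sum.inr s) = if s = r then 1 else 0 :=
  if_congr Fin.val_inj rfl rfl

theorem ee_inl (r : Rt) (i : Fin chevE8.rank) : ee r (Sum.inl i) = 0 := rfl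

theorem hr_inr (r s : Rt) : hr r (Sum.inr s) = 0 := rfl

theorem hr_inl (r : Rt) (i : Fin chevE8.rank) :
    hr r (Sum.inl i) = ((co chevE8 r i : ℤ) : K) := rfl

theorem hr_ng (r : Rt) : hr (ng r) = -hr r := by
  funext a
  rcases a with i | s
  · rw [Pi.neg_apply, hr_inl, hr_inl]
    have h1 : co chevE8 (ng r) i = C8.R.co (ng r) i := (C8.co_eq _ i).symm
    have h2 : co chevE8 r i = C8.R.co r i := (C8.co_eq _ i).symm
    rw [h1, h2, C8.R.co_neg, Pi.neg_apply, Int.cast_neg]
  · rw [Pi.neg_apply, hr_inr, hr_inr, neg_zero]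

theorem al_add' (r : Rt) (v w : V) : al r (v + w) = al r v + al r w := by
  simp only [al, Pi.add_apply, add_mul, Finset.sum_add_distrib]

theorem al_ee (r s : Rt) : al r (ee s) = 0 := by
  simp only [al, ee_inl, zero_mul, Finset.sum_const_zero]

theorem al_hr (r s : Rt) : al r (hr s) = ((C8.R.pair s r : ℤ) : K) := by
  rw [RS.pair_def, Int.cast_sum, al]
  refine Finset.sum_congr rfl fun i _ => ?_
  have h2 : co chevE8 s i = C8.R.co s i := (C8.co_eq _ i).symm
  rw [hr_inl, h2, C8.wt_eq, Int.cast_mul]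

/-- `al` as a linear map -/
noncomputable def alL (r : Rt) : V →ₗ[K] K where
  toFun := al r
  map_add' := al_add' r
  map_smul' := al_smul r

theorem act_xx (r : Rt) (t : K) (v : V) (hv : ∀ s', v (Sum.inr s') ≠ 0 → ∀ s, ¬ Sum2 r s' s) :
    act (xx r t) v = v + (t * v (Sum.inr (ng r))) • hr r +
      (-(al r v * t) - t ^ 2 * v (Sum.inr (ng r))) • ee r := by
  obtain ⟨cf, h1, h2⟩ := H80.FvEnt.entS
  obtain ⟨h3, h4⟩ := h2 K r t v
  rw [act_apply, xg_eq]
  funext a
  rcases a with i | s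
  · rw [h3]
    simp only [Pi.add_apply, Pi.smul_apply, smul_eq_mul, ee_inl, hr_inl, mul_zero, add_zero]
  · rw [h4, Finset.sum_eq_zero, add_zero]
    · simp only [Pi.add_apply, Pi.smul_apply, smul_eq_mul, ee_inr, hr_inr, mul_zero, add_zero,
        mul_ite, mul_one]
    · intro s' _
      by_cases h5 : v (Sum.inr s') = 0
      · rw [h5, mul_zero]
      · have : cf r s' s = 0 := by
          by_contra h6
          exact hv s' h5 s (h1 r s' s h6)
        rw [this, Int.cast_zero, zero_mul, zero_mul]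

theorem sv_inr (i : Fin 4) (x : K × K × K) (s : Rt) : sv i x (Sum.inr s) =
    (if s = aa i then x.1 else 0) + if s = ng (aa i) then x.2.1 else 0 := by
  simp only [H50.L81.sv, Pi.add_apply, Pi.smul_apply, smul_eq_mul, ee_inr, hr_inr, mul_zero, add_zero,
    mul_ite, mul_one]

theorem sv_out {i : Fin 4} (x : K × K × K) {s : Rt} (h : ¬ In i s) : sv i x (Sum.inr s) = 0 := by
  rw [sv_inr, if_neg fun e => h (Or.inl e), if_neg fun e => h (Or.inr e), add_zero]

theorem sv_aa (i : Fin 4) (x : K × K × K) : sv i x (Sum.inr (aa i)) = x.1 := by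
  rw [sv_inr, if_pos rfl, if_neg (C8.R.neg_ne _).symm, add_zero]

theorem sv_ng (i : Fin 4) (x : K × K × K) : sv i x (Sum.inr (ng (aa i))) = x.2.1 := by
  rw [sv_inr, if_pos rfl, if_neg (C8.R.neg_ne _), zero_add]

theorem al_sv (r : Rt) (i : Fin 4) (x : K × K × K) :
    al r (sv i x) = x.2.2 * ((C8.R.pair (aa i) r : ℤ) : K) := by
  rw [H50.L81.sv, al_add', al_add', al_smul, al_smul, al_smul, al_ee, al_ee, al_hr]
  ring

theorem sv_ok (D : DateStmt) {i : Fin 4} {r : Rt} (hr : In i r) (j : Fin 4) (x : K × K × K)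
    (s' : Rt) (h : sv j x (Sum.inr s') ≠ 0) (s : Rt) : ¬ Sum2 r s' s :=
  nosum D hr (by by_contra h'; exact h (sv_out x h')) s

theorem actU (D : DateStmt) (i : Fin 4) (t : K) (x : K × K × K) :
    act (xx (aa i) t) (sv i x) = sv i (Um t x) := by
  rw [act_xx _ _ _ (sv_ok D (Or.inl rfl) i x), sv_ng, al_sv, C8.R.pair_self]
  unfold H50.L81.sv Um
  push_cast
  module

theorem actL (D : DateStmt) (i : Fin 4) (t : K) (x : K × K × K) :
    act (xx (ng (aa i)) t) (sv i x) = sv i (Lm t x) := by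
  rw [act_xx _ _ _ (sv_ok D (Or.inr rfl) i x), show ng (ng (aa i)) = aa i from C8.R.neg_neg _,
    sv_aa, al_sv, C8.R.pair_neg_right,
    C8.R.pair_self, hr_ng]
  unfold H50.L81.sv Lm
  push_cast
  module

theorem actO (D : DateStmt) {i j : Fin 4} {r : Rt} (hr : In i r) (hij : j ≠ i) (t : K)
    (x : K × K × K) : act (xx r t) (sv j x) = sv j x := by
  rw [act_xx _ _ _ (sv_ok D hr j x), sv_out x fun h => In.ne D h hr.ng hij rfl, al_sv,
    hr.pair D hij]
  simp

theorem actZ {i : Fin 4} {r : Rt} (hr : In i r) (t : K) {h : V} (hh : Zc h) :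
    act (xx r t) h = h := by
  have e : al r h = 0 := by
    rcases hr with rfl | rfl
    · exact hh.2 i
    · rw [al_neg, hh.2 i, neg_zero]
  rw [act_xx _ _ _ fun s' h' => absurd (hh.1 s') h', hh.1, e]
  simp

theorem in_ite (i : Fin 4) (b : Bool) : In i (if b then aa i else ng (aa i)) := by
  cases b
  · exact Or.inr rfl
  · exact Or.inl rfl

theorem gw_nil (i : Fin 4) : gw i [] = 1 := rfl

theorem gw_cons (i : Fin 4) (q : Bool × K) (L : List (Bool × K)) :
    gw i (q :: L) = xx (if q.1 then aa i else ng (aa i)) q.2 * gw i L := by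
  rw [gw, List.map_cons, List.prod_cons]; rfl

theorem gw_fix {i : Fin 4} {v : V} (h : ∀ r, In i r → ∀ t, act (xx r t) v = v)
    (L : List (Bool × K)) : act (gw i L) v = v := by
  induction L with
  | nil => rw [gw_nil, map_one]; rfl
  | cons q L ih => rw [gw_cons, act_mul, ih, h _ (in_ite i _)]

theorem gw_comm {i : Fin 4} {g : GK} (h : ∀ r, In i r → ∀ t, Commute g (xx r t))
    (L : List (Bool × K)) : Commute g (gw i L) := by
  induction L with
  | nil => rw [gw_nil]; exact Commute.one_right _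
  | cons q L ih => rw [gw_cons]; exact (h _ (in_ite i _) _).mul_right ih

theorem gw_act (D : DateStmt) (i : Fin 4) (L : List (Bool × K)) (x : K × K × K) :
    act (gw i L) (sv i x) = sv i (wd L x) := by
  induction L with
  | nil => rw [gw_nil, map_one]; rfl
  | cons q L ih =>
    obtain ⟨b, t⟩ := q
    rw [gw_cons, act_mul, ih]
    cases b
    · exact actL D i t _
    · exact actU D i t _

theorem sum_in (D : DateStmt) (x : Fin 4 → K × K × K) {j : Fin 4} {r : Rt} (hr : In j r) :
    (∑ i, sv i (x i)) (Sum.inr r) = sv j (x j) (Sum.inr r) := by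
  rw [Finset.sum_apply, Finset.sum_eq_single j]
  · exact fun i _ hi => sv_out _ fun h => In.ne D h hr hi rfl
  · exact fun h => absurd (Finset.mem_univ j) h

theorem sum_out (x : Fin 4 → K × K × K) {r : Rt} (hr : ∀ j, ¬ In j r) :
    (∑ i, sv i (x i)) (Sum.inr r) = 0 := by
  rw [Finset.sum_apply]
  exact Finset.sum_eq_zero fun i _ => sv_out _ (hr i)

theorem sum_al (D : DateStmt) (x : Fin 4 → K × K × K) (j : Fin 4) :
    al (aa j) (∑ i, sv i (x i)) = (x j).2.2 * 2 := by
  have : al (aa j) (∑ i, sv i (x i)) = ∑ i, al (aa j) (sv i (x i)) := map_sum (alL (aa j)) _ _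
  rw [this, Finset.sum_eq_single j]
  · rw [al_sv, C8.R.pair_self]; norm_num
  · intro i _ hi
    rw [al_sv, (D.2.1 i j hi).1, Int.cast_zero, mul_zero]
  · exact fun h => absurd (Finset.mem_univ j) h

theorem two_ne : (2 : K) ≠ 0 := by
  intro h
  have h3 : ((3 : ℕ) : K) = 0 := CharP.cast_eq_zero K 3
  have : (1 : K) = 0 := by
    push_cast at h3
    linear_combination h3 - h
  exact one_ne_zero this

theorem gwa (D : DateStmt) (kit : KitStmt) : GwaStmt := by
  refine ⟨fun i L => ⟨gw_act D i L, fun j x hj => gw_fix (fun r hr t => actO D hr hj t x) L,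
    fun h hh => gw_fix (fun r hr t => actZ hr t hh) L, fun j L' hj => ?_⟩, ?_, ?_⟩
  · refine gw_comm (fun r hr t => (gw_comm (fun s hs u => ?_) L).symm) L'
    exact comm_xx (In.ne D hs hr hj.symm) (In.ne D hs hr.ng hj.symm) (nosum D hr hs) u t
  · intro h x hh e
    have hx : ∀ j, x j = 0 := fun j => by
      have e1 := congrFun e (Sum.inr (aa j))
      have e2 := congrFun e (Sum.inr (ng (aa j)))
      have e3 := congrArg (al (aa j)) e
      rw [Pi.add_apply, hh.1, zero_add, sum_in D x (Or.inl rfl), sv_aa] at e1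
      rw [Pi.add_apply, hh.1, zero_add, sum_in D x (Or.inr rfl), sv_ng] at e2
      rw [al_add', hh.2, zero_add, sum_al D, show al (aa j) (0 : V) = 0 from map_zero (alL (aa j)),
        mul_eq_zero] at e3
      exact Prod.ext e1 (Prod.ext e2 (e3.resolve_right two_ne))
    refine ⟨?_, hx⟩
    rw [Finset.sum_eq_zero, add_zero] at e
    · exact e
    · intro i _
      rw [hx i, H50.L81.sv]
      simp
  · intro ζ t hζ hl
    have key : ∀ r, ζ ^ ff 4 r = 1 ↔ ∃ i, In i r := fun r => by
      rw [← zpow_zero ζ, zpow_eq_iff hζ, Int.cast_zero]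
      exact D.1 r
    refine ⟨fun i L => gw_comm (fun r hr u => ?_) L, fun v => ?_⟩
    · have := hl.conj_xg r u
      rw [(key r).2 ⟨i, hr⟩, Units.val_one, one_mul] at this
      exact mul_inv_eq_iff_eq_mul.1 this
    · obtain ⟨a1, a2⟩ := kit.2.2.1 ζ t _ hl v
      constructor
      · intro hv
        have hz : ∀ r, (∀ j, ¬ In j r) → v (Sum.inr r) = 0 := fun r hr => by
          have h1 := a2 r
          rw [hv] at h1
          by_contra h2
          have h3 : ((ζ ^ ff 4 r : Kˣ) : K) = 1 :=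
            mul_right_cancel₀ h2 (h1.symm.trans (one_mul _).symm)
          obtain ⟨j, hj⟩ := (key r).1 (Units.ext h3)
          exact hr j hj
        let x : Fin 4 → K × K × K := fun i =>
          (v (Sum.inr (aa i)), v (Sum.inr (ng (aa i))), al (aa i) v / 2)
        refine ⟨v - ∑ i, sv i (x i), x, ⟨fun r => ?_, fun j => ?_⟩, (sub_add_cancel _ _).symm⟩
        · rw [Pi.sub_apply, sub_eq_zero]
          by_cases hr : ∃ j, In j r
          · obtain ⟨j, hj⟩ := hr
            rw [sum_in D x hj]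
            rcases hj with rfl | rfl
            · rw [sv_aa]
            · rw [sv_ng]
          · rw [hz r fun j hj => hr ⟨j, hj⟩, sum_out x fun j hj => hr ⟨j, hj⟩]
        · have : al (aa j) (v - ∑ i, sv i (x i)) = al (aa j) v - al (aa j) (∑ i, sv i (x i)) :=
            map_sub (alL (aa j)) _ _
          rw [this, sum_al D, div_mul_cancel₀ _ two_ne, sub_self]
      · rintro ⟨h, x, hh, e⟩
        funext a
        rcases a with i | r
        · exact a1 i
        · rw [a2]
          by_cases hr : ∃ j, In j r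
          · rw [(key r).2 hr, Units.val_one, one_mul]
          · rw [e, Pi.add_apply, hh.1, sum_out x fun j hj => hr ⟨j, hj⟩, add_zero, mul_zero]

end Cfsg.Agent.H72.L81Gwa
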