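import Cfsg.Agent.H54.O84Defs

/-! # Project O84, piece RHO: the complex reflections `ρ r` -/

set_option autoImplicit false
set_option maxRecDepth 100000

namespace Cfsg.Agent.H72.O84Rho

open Cfsg.Agent.H54.O84 Equiv Cfsg.Lie H37 H40 H34 H29
open scoped Matrix

theorem skew (r s : Rt) : C8.R.pair (w r) s = -C8.R.pair r (w s) := by
  rw [← C8.R.pair_W w_mem, w_w]
  exact C8.R.pair_neg_left _ _

theorem orth (r : Rt) : C8.R.pair r (w r) = 0 := by
  have := skew r r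
  rw [pair_symm] at this
  omega

theorem τ_fix {r s : Rt} (h : C8.R.pair r s = 0) : τ r s = s :=
  C8.R.rc_inj (by rw [τ, C8.R.rc_τ, h, zero_smul, sub_zero])

theorem τ_conj {u : Perm Rt} (hu : u ∈ C8.S.W) (r : Rt) : u * τ r * u⁻¹ = τ (u r) :=
  C8.R.conj_τ hu r

theorem ρ_conj {u : Perm Rt} (hu : u ∈ C8.S.W) (r : Rt) :
    u * ρ r * u⁻¹ = τ (u r) * τ (u (w r)) := by
  rw [← τ_conj hu, ← τ_conj hu, ρ]; group

theorem pair_le (r s : Rt) : C8.R.pair r s ≤ 2 := by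
  have key : ∀ i < 8, ∀ s < 240, pr (chevE8.simple i) s ≤ 2 := by decide +kernel
  obtain ⟨u, hu, i, rfl⟩ := C8.R.exists_W_simple r
  obtain ⟨s, rfl⟩ := u.surjective s
  rw [C8.R.pair_W hu, H54.O84.pair_eq, C8.simple_val]
  exact key i i.2 s s.2

theorem span (x : V) (h : ∀ r, x ⬝ᵥ m r = 0) : x = 0 := by
  have key : ∀ r < 240, x 0 * mF r 0 + x 1 * mF r 1 + x 2 * mF r 2 + x 3 * mF r 3 = 0 :=
    fun r hr => by
      have := h ⟨r, hr⟩
      rwa [dotProduct, Fin.sum_univ_four, m_val, m_val, m_val, m_val] at this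
  have t : ∀ k < 4, mF 141 k = [1, 4, 0, 0].getD k 0 ∧ mF 135 k = [0, 0, 1, 4].getD k 0 ∧
      mF 130 k = [0, 1, 4, 0].getD k 0 ∧ mF 126 k = [0, 0, 1, 1].getD k 0 := by decide +kernel
  have h1 := key 141 (by norm_num)
  have h2 := key 135 (by norm_num)
  have h3 := key 130 (by norm_num)
  have h4 := key 126 (by norm_num)
  obtain ⟨a0, b0, c0, d0⟩ := t 0 (by norm_num)
  obtain ⟨a1, b1, c1, d1⟩ := t 1 (by norm_num)
  obtain ⟨a2, b2, c2, d2⟩ := t 2 (by norm_num)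
  obtain ⟨a3, b3, c3, d3⟩ := t 3 (by norm_num)
  rw [a0, a1, a2, a3] at h1
  rw [b0, b1, b2, b3] at h2
  rw [c0, c1, c2, c3] at h3
  rw [d0, d1, d2, d3] at h4
  have : x 0 = 0 ∧ x 1 = 0 ∧ x 2 = 0 ∧ x 3 = 0 := by
    revert h1 h2 h3 h4
    generalize x 0 = a; generalize x 1 = b; generalize x 2 = c; generalize x 3 = d
    revert a b c d
    decide +kernel
  funext k
  fin_cases k
  exacts [this.1, this.2.1, this.2.2.1, this.2.2.2]

theorem m_neg (r : Rt) : m (C8.S.neg r) = -m r := by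
  rw [← w_w, m_w, m_w, smul_smul, ← neg_one_smul (ZMod 5)]
  rfl

theorem rho : RhoStmt := by
  refine ⟨fun r => mem_CW.2 ⟨mul_mem (τ_mem _) (τ_mem _), ?_⟩, fun r h => ?_,
    fun u hu => τ_conj hu, fun u hu r => ?_, fun r s => abs_le.2 ⟨?_, pair_le r s⟩, skew,
    fun r s => ?_, span, m_neg, fun u hu S => ?_⟩
  · have h1 : τ (C8.S.neg r) = τ r := C8.R.τ_neg r
    have h2 := τ_conj (τ_mem r) (w r)
    rw [τ_fix (orth r), mul_inv_eq_iff_eq_mul] at h2
    rw [eq_comm, ← mul_inv_eq_iff_eq_mul, ρ_conj w_mem, w_w, h1, ← h2, ρ]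
  · have h1 := τ_conj w_mem r
    rw [← (mem_CW.1 h).2, mul_inv_cancel_right] at h1
    have h2 : τ r r = C8.R.neg r := C8.R.τ_self r
    rw [h1, τ_fix ((pair_symm _ _).trans (orth r))] at h2
    exact C8.R.neg_ne r h2.symm
  · rw [ρ_conj hu.1, ← Perm.mul_apply u w, (mem_CW.1 hu).2]
    rfl
  · have := pair_le (C8.R.neg r) s
    rw [C8.R.pair_neg_left] at this
    omega
  · have h1 : C8.R.pair r (τ (w r) s) = C8.R.pair r s := by
      rw [τ, (isAdd_pair r).τ, orth, mul_zero, sub_zero]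
    rw [ρ, Perm.mul_apply, m_τ, m_τ, h1, m_w, smul_smul, sub_sub, ← add_smul]
    congr 2
    push_cast
    ring
  · rw [WS, WS, MonoidHom.map_closure, Set.image_image, Set.image_image]
    congr 2
    funext r
    exact τ_conj hu r

end Cfsg.Agent.H72.O84Rho
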