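import Cfsg.Agent.H79.RbCl

/-! Project RB (S4578): the group `Pin n` is a double cover of the symmetric group. -/

set_option autoImplicit false

open Cfsg Equiv Finset CliffordAlgebra

namespace Cfsg.Agent.H72.RbPin

open Cfsg.Agent.H79.RB

theorem s2_inv : s2⁻¹ * s2⁻¹ * 2 = 1 := by
  rw [← mul_inv, s2_mul_self]; norm_num

theorem tt_sq {n : ℕ} {i j : Fin n} (h : i ≠ j) :
    (s2⁻¹ • (cc i - cc j)) * (s2⁻¹ • (cc i - cc j)) = 1 := by
  rw [smul_mul_smul_comm, sub_mul, mul_sub, mul_sub, cc_sq, cc_sq, cc_anti h]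
  have : (1 : Cl n) - -(cc j * cc i) - (cc j * cc i - 1) = (2 : ℂ) • (1 : Cl n) := by
    rw [two_smul]; abel
  rw [this, smul_smul, s2_inv, one_smul]

theorem sg_swap {n : ℕ} {i j : Fin n} (h : i ≠ j) : sg (swap i j) = -1 := by
  simp [sg, Perm.sign_swap h]

theorem trpStmt : TrpStmt := by
  intro n i j h
  refine ⟨⟨(⟨s2⁻¹ • (cc i - cc j), s2⁻¹ • (cc i - cc j), tt_sq h, tt_sq h⟩, swap i j),
    fun k => ?_, ?_, ?_⟩, rfl, rfl⟩
  · simp only [sg_swap h, neg_smul, one_smul, smul_mul_assoc, mul_smul_comm, ← smul_neg]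
    congr 1
    rw [sub_mul, mul_sub]
    by_cases h1 : k = i
    · subst h1
      rw [swap_apply_left, cc_sq, cc_sq]; abel
    · by_cases h2 : k = j
      · subst h2
        rw [swap_apply_right, cc_sq, cc_sq]; abel
      · rw [swap_apply_of_ne_of_ne h1 h2, cc_anti h1, cc_anti h2]; abel
  · simp only [sg_swap h, map_smul, map_sub, involute_cc, neg_smul, one_smul, ← smul_neg]
    congr 1
    abel
  · simp only [map_smul, map_sub, reverse_cc]
    exact tt_sq h

theorem surj (n : ℕ) : Function.Surjective (pr n) := by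
  intro σ
  induction σ using Perm.swap_induction_on with
  | one => exact ⟨1, map_one _⟩
  | swap_mul f x y hxy ih =>
    obtain ⟨g, rfl⟩ := ih
    obtain ⟨t, -, ht⟩ := trpStmt n x y hxy
    exact ⟨t * g, by rw [map_mul, ht]⟩

theorem zz_ne (n : ℕ) : zz n ≠ 1 := by
  intro h
  have h1 : (-1 : Cl n) = 1 := by rw [← cl_zz, h, map_one]
  have h2 : algebraMap ℂ (Cl n) (-1) = algebraMap ℂ (Cl n) 1 := by simpa using h1
  have h3 := (algebraMap ℂ (Cl n)).injective h2
  norm_num at h3

theorem ker (hB : ClBaseStmt) (n : ℕ) (g : Pin n) : pr n g = 1 ↔ g = 1 ∨ g = zz n := by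
  refine ⟨fun h => ?_, ?_⟩
  · obtain ⟨a, ha⟩ := (hB n).2.2.2 (cl n g) (by rw [involute_cl, h, sg_one, one_smul])
      fun i => by rw [cl_cc, h, sg_one, one_smul, Perm.one_apply]
    have h1 := reverse_cl g
    rw [ha, reverse.commutes, ← map_mul, ← map_one (algebraMap ℂ (Cl n))] at h1
    rcases mul_self_eq_one_iff.1 ((algebraMap ℂ (Cl n)).injective h1) with rfl | rfl
    · exact Or.inl (pin_ext (by rw [ha, map_one, map_one]) (by rw [h, map_one]))
    · exact Or.inr (pin_ext (by rw [ha, cl_zz, map_neg, map_one]) (by rw [h, pr_zz]))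
  · rintro (rfl | rfl)
    · exact map_one _
    · rfl

theorem fin (hB : ClBaseStmt) (n : ℕ) : Finite (Pin n) := by
  choose s hs using surj n
  refine Finite.of_surjective
    (fun e : Bool × Perm (Fin n) => (if e.1 then zz n else 1) * s e.2) fun g => ?_
  have h1 : pr n (g * (s (pr n g))⁻¹) = 1 := by rw [map_mul, map_inv, hs, mul_inv_cancel]
  rcases (ker hB n _).1 h1 with h | h
  · exact ⟨(false, pr n g), by simpa using (mul_inv_eq_one.1 h).symm⟩
  · exact ⟨(true, pr n g), by simpa using (mul_inv_eq_iff_eq_mul.1 h).symm⟩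

theorem sc_cl (hB : ClBaseStmt) {n : ℕ} (x : Pin n) : ∀ (m : ℕ) (y : Pin n),
    #(pr n y).support = m → (pr n x).Disjoint (pr n y) →
    (Perm.sign (pr n y) = 1 → cl n x * cl n y = cl n y * cl n x) ∧
      (Perm.sign (pr n y) = -1 → cl n x * cl n y = sg (pr n x) • (cl n y * cl n x)) := by
  intro m
  induction m using Nat.strong_induction_on with
  | _ m ih =>
  intro y hm hd
  by_cases h1 : pr n y = 1
  · refine ⟨fun _ => ?_, fun h => ?_⟩
    · rcases (ker hB n y).1 h1 with rfl | rfl
      · simp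
      · simp [cl_zz]
    · rw [h1, map_one] at h
      exact absurd h (by decide)
  obtain ⟨a, ha⟩ : ∃ a, pr n y a ≠ a := by
    by_contra h
    push Not at h
    exact h1 (Equiv.ext h)
  obtain ⟨t, ht, pt⟩ := trpStmt n a (pr n y a) ha.symm
  have xa : pr n x a = a := (hd a).resolve_right ha
  have xb : pr n x (pr n y a) = pr n y a :=
    (hd _).resolve_right fun e => ha ((pr n y).injective e)
  have h2 : cl n x * cl n t = sg (pr n x) • (cl n t * cl n x) := by
    rw [ht, mul_smul_comm, mul_sub, cl_cc, cl_cc, xa, xb, smul_mul_assoc, sub_mul, ← smul_sub,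
      smul_comm]
  have h3 : pr n (t * y) = swap a (pr n y a) * pr n y := by rw [map_mul, pt]
  have h4 := ih _ (by rw [← hm]; exact Perm.card_support_swap_mul ha) (t * y) (by rw [h3])
    (fun k => (hd k).imp id fun hk => by
      by_contra e
      rw [h3] at e
      exact Perm.mem_support.1 (Perm.mem_support_swap_mul_imp_mem_support_ne
        (Perm.mem_support.2 e)).1 hk)
  have h5 : cl n y = cl n t * cl n (t * y) := by
    rw [map_mul, ← mul_assoc, ht, tt_sq ha.symm, one_mul]
  rw [h3, map_mul, Perm.sign_swap ha.symm] at h4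
  refine ⟨fun h => ?_, fun h => ?_⟩
  · rw [h5, ← mul_assoc, h2, smul_mul_assoc, mul_assoc, h4.2 (by rw [h, mul_one]), mul_smul_comm,
      smul_smul, sg_mul_self, one_smul, mul_assoc]
  · rw [h5, ← mul_assoc, h2, smul_mul_assoc, mul_assoc, h4.1 (by rw [h]; decide), mul_assoc]

theorem pinStmt (hB : ClBaseStmt) : PinStmt := by
  intro n
  refine ⟨surj n, zz_ne n, ker hB n, fin hB n, fun x y hd => ?_⟩
  have h := sc_cl hB x _ y rfl hd
  refine pin_ext ?_ ?_
  · rw [map_mul, map_mul, map_mul]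
    rcases Int.units_eq_one_or (Perm.sign (pr n y)) with hy | hy
    · rw [h.1 hy, if_neg (fun e => by rw [hy] at e; exact absurd e.2 (by decide)), map_one, one_mul]
    · rw [h.2 hy]
      rcases Int.units_eq_one_or (Perm.sign (pr n x)) with hx | hx
      · rw [if_neg (fun e => by rw [hx] at e; exact absurd e.1 (by decide)), map_one, one_mul, sg, hx]
        simp
      · rw [if_pos ⟨hx, hy⟩, cl_zz, sg, hx]
        simp
  · rw [map_mul, map_mul, map_mul, hd.commute.eq]
    split_ifs
    · rw [pr_zz, one_mul]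
    · rw [map_one, one_mul]

end Cfsg.Agent.H72.RbPin
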