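import Cfsg.Agent.H79.RbDefs

/-! Project RB (S4578): values of the characteristic map and the product formula. -/

set_option autoImplicit false

open Cfsg Equiv Finset

namespace Cfsg.Agent.H72.RbVal

open Cfsg.Agent.H79.RB

theorem fib_eq (F : SpinFam) {n : ℕ} {g h : F.G n} (e : F.π n g = F.π n h) :
    g = h ∨ g = F.z n * h := by
  have h1 : F.π n (g * h⁻¹) = 1 := by rw [map_mul, map_inv, e, mul_inv_cancel]
  rcases (F.ker n _).1 h1 with h2 | h2
  · exact Or.inl (mul_inv_eq_one.1 h2)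
  · exact Or.inr (mul_inv_eq_iff_eq_mul.1 h2)

open Classical in
theorem card_typ (F : SpinFam) {n : ℕ} (σ : Perm (Fin n)) :
    #(univ.filter fun g : F.G n => H19.typ (F.π n g) = H19.typ σ) * H19.zM (H19.typ σ) =
      2 * n.factorial := by
  have h1 := Perm.card_isConj_mul_eq σ
  rw [← Perm.nat_card_centralizer, ← H19.zM_typ, Fintype.card_fin] at h1
  have h2 : #(univ.filter fun τ : Perm (Fin n) => H19.typ τ = H19.typ σ) =
      Nat.card {h : Perm (Fin n) | IsConj σ h} := by
    rw [← Nat.card_eq_finsetCard]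
    refine Nat.card_congr (Equiv.subtypeEquivRight fun τ => ?_)
    simp only [mem_filter, mem_univ, true_and, H19.typ_eq_iff]
    exact isConj_comm
  have h3 : #(univ.filter fun g : F.G n => H19.typ (F.π n g) = H19.typ σ) =
      2 * #(univ.filter fun τ : Perm (Fin n) => H19.typ τ = H19.typ σ) := by
    rw [card_eq_sum_card_fiberwise (f := F.π n)
      (t := univ.filter fun τ : Perm (Fin n) => H19.typ τ = H19.typ σ)
      (fun g hg => by simpa using hg), mul_comm, ← smul_eq_mul, ← sum_const]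
    refine sum_congr rfl fun ρ hρ => ?_
    obtain ⟨g, rfl⟩ := F.surj n ρ
    have zz : F.π n (F.z n) = 1 := (F.ker n _).2 (Or.inr rfl)
    have : ((univ.filter fun g : F.G n => H19.typ (F.π n g) = H19.typ σ).filter
        fun a => F.π n a = F.π n g) = {g, F.z n * g} := by
      ext a
      simp only [mem_filter, mem_univ, true_and, mem_insert, mem_singleton]
      constructor
      · exact fun h => fib_eq F h.2
      · rintro (rfl | rfl)
        · exact ⟨(mem_filter.1 hρ).2, rfl⟩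
        · rw [map_mul, zz, one_mul]
          exact ⟨(mem_filter.1 hρ).2, rfl⟩
    rw [this, card_pair fun e => F.z_ne n (by simpa using e)]
  rw [h3, h2, mul_assoc, h1]

theorem hom_ch (hM : MonStmt) (F : SpinFam) {n : ℕ} (f : F.G n → ℂ) : Hom n (F.ch f) := by
  classical
  intro m hm
  rw [SpinFam.ch, MvPolynomial.coeff_smul, MvPolynomial.coeff_sum] at hm
  obtain ⟨g, hg, h1⟩ := exists_ne_zero_of_sum_ne_zero (right_ne_zero_of_smul hm)
  rw [MvPolynomial.coeff_monomial] at h1
  have h2 : mon (F.π n g) = m := by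
    by_contra h
    exact h1 (if_neg h)
  rw [← h2]
  exact (hM.1 n _ (mem_filter.1 hg).2).1

theorem ip_ch (hC : ClassStmt) (hM : MonStmt) (F : SpinFam) {n : ℕ} {f : F.G n → ℂ}
    (hf : F.Spin f) (g : F.G n) (hg : OddT (F.π n g)) :
    ip (MvPolynomial.monomial (mon (F.π n g)) 1) (F.ch f) =
      s2 ^ n / 2 ^ Multiset.card (H19.typ (F.π n g)) * (f g * F.τ n g) := by
  classical
  obtain ⟨-, h1, -, h2⟩ := hM.1 n _ hg
  have h3 := card_typ F (F.π n g)
  have h4 := (hC F n).2.2.1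
  rw [ip_monomial, SpinFam.ch, MvPolynomial.coeff_smul, MvPolynomial.coeff_sum]
  simp only [MvPolynomial.coeff_monomial]
  rw [← sum_filter, filter_filter]
  have h5 : (univ.filter fun a : F.G n => OddT (F.π n a) ∧ mon (F.π n a) = mon (F.π n g)) =
      univ.filter fun a : F.G n => H19.typ (F.π n a) = H19.typ (F.π n g) := by
    refine filter_congr fun a _ => ⟨fun h => ?_, fun h => ?_⟩
    · exact (H19.typ_eq_iff.2 (h2 _ h.1 h.2.symm)).symm
    · exact ⟨by rw [OddT, h]; exact hg, by rw [mon, h, mon]⟩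
  have h6 : ∀ a ∈ univ.filter fun a : F.G n => H19.typ (F.π n a) = H19.typ (F.π n g),
      f a * F.τ n a = f g * F.τ n g := by
    intro a ha
    obtain ⟨s, hs⟩ := isConj_iff.1 (H19.typ_eq_iff.1 (mem_filter.1 ha).2.symm)
    obtain ⟨h, rfl⟩ := F.surj n s
    rw [← map_inv, ← map_mul, ← map_mul] at hs
    rcases fib_eq F hs.symm with rfl | rfl
    · rw [hf.1, F.τ_conj]
    · rw [hf.2, F.τ_z, hf.1, F.τ_conj]; ring
  rw [h5, sum_congr rfl h6, sum_const, nsmul_eq_mul, smul_eq_mul, h4, ← h3]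
  have h7 : (H19.zM (H19.typ (F.π n g)) : ℂ) ≠ 0 := by
    exact_mod_cast (H19.zM_pos (H19.typ_pos _)).ne'
  have h8 : (#(univ.filter fun a : F.G n => H19.typ (F.π n a) = H19.typ (F.π n g)) : ℂ) ≠ 0 := by
    exact_mod_cast (card_pos.2 ⟨g, by simp⟩).ne'
  push_cast
  rw [← h1] at h7 ⊢
  have h9 := left_ne_zero_of_mul h7
  field_simp

theorem coeff_qq (n : ℕ) (m : ℕ →₀ ℕ) :
    MvPolynomial.coeff m (qq n) = if wt m = n then (nrm m)⁻¹ else 0 := by
  classical
  rw [qq, MvPolynomial.coeff_sum]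
  simp only [MvPolynomial.coeff_monomial]
  rw [sum_ite_eq']
  simp only [mem_Mon]

theorem s2_ne : s2 ≠ 0 := fun h => by
  have := s2_mul_self
  rw [h, mul_zero] at this
  exact two_ne_zero this.symm

theorem s2_pow (k : ℕ) : s2 ^ (2 * k) = 2 ^ k := by rw [pow_mul, sq, s2_mul_self]

theorem valStmt (hC : ClassStmt) (hM : MonStmt) : ValStmt := by
  classical
  intro F n f
  refine ⟨hom_ch hM F f, fun hf g hg => ip_ch hC hM F hf g hg, fun hn hf => ?_⟩
  have hs : F.Spin fun g => 2 ^ ((n - 1) / 2) * F.τ n g :=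
    ⟨fun g h => by simp only [F.τ_conj], fun g => by simp only [F.τ_z, mul_neg]⟩
  have he : F.ch f = F.ch fun g => 2 ^ ((n - 1) / 2) * F.τ n g := by
    unfold SpinFam.ch
    congr 1
    refine sum_congr rfl fun g hg => ?_
    rw [hf g (((hC F n).2.2.2 g).1 (mem_filter.1 hg).2)]
  rw [he]
  ext m
  rw [coeff_qq, MvPolynomial.coeff_smul, smul_eq_mul]
  by_cases hm : wt m = n
  · obtain ⟨σ, h1, rfl⟩ := hM.2.1 n m hm
    obtain ⟨g, rfl⟩ := F.surj n σ
    have h2 := ip_ch hC hM F hs g h1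
    have h3 := F.τ_sq n g h1
    rw [ip_monomial, ← h3] at h2
    have h4 : F.τ n g ≠ 0 := fun h => by
      rw [h] at h3
      simp at h3
      exact pow_ne_zero _ two_ne_zero h3.symm
    have h5 := nrm_ne_zero (mon (F.π n g))
    rw [if_pos hm, eq_comm, ← mul_right_inj' h5, mul_inv_cancel₀ h5, mul_left_comm, h2]
    rcases Nat.even_or_odd' n with ⟨k, rfl | rfl⟩
    · obtain ⟨k, rfl⟩ : ∃ j, k = j + 1 := ⟨k - 1, by omega⟩
      rw [if_neg (by simp), s2_pow, show (2 * (k + 1) - 1) / 2 = k by omega]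
      field_simp
      ring
    · rw [if_pos (by simp), pow_succ s2, s2_pow, show (2 * k + 1 - 1) / 2 = k by omega]
      field_simp
      rw [sq s2, s2_mul_self]
      ring
  · rw [if_neg hm]
    by_contra h
    exact hm (hom_ch hM F _ m (right_ne_zero_of_mul (Ne.symm h)))

theorem spin_zero (hC : ClassStmt) (F : SpinFam) {n : ℕ} {f : F.G n → ℂ} (hf : F.Spin f)
    {x : F.G n} (h1 : Perm.sign (F.π n x) = 1) (h2 : ¬ OddT (F.π n x)) : f x = 0 := by
  obtain ⟨h, e⟩ := ((hC F n).2.2.2 x).2.1 h1 h2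
  have h3 := hf.1 x h
  rw [e, hf.2] at h3
  linear_combination (-1 / 2 : ℂ) * h3

theorem prodStmt (hC : ClassStmt) (hM : MonStmt) : ProdStmt := by
  classical
  intro F a b f g h hf hg hh
  have key : ∀ (x : F.G a) (y : F.G b), OddT (F.π a x) → OddT (F.π b y) →
      s2 ^ a * s2 ^ b * ip (MvPolynomial.monomial (mon (F.π a x)) (f x * F.τ a x) *
        MvPolynomial.monomial (mon (F.π b y)) (g y * F.τ b y)) (F.ch h) =
      f x * g y * h (F.i1 a b x * F.i2 a b y) := by
    intro x y hx hy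
    have ht : H19.typ (F.π (a + b) (F.i1 a b x * F.i2 a b y)) =
        H19.typ (F.π a x) + H19.typ (F.π b y) := by
      rw [map_mul, F.π_i1, F.π_i2]; exact (hM.2.2.2 a b _ _).1
    have ho : OddT (F.π (a + b) (F.i1 a b x * F.i2 a b y)) := by
      intro r hr
      rw [ht] at hr
      exact (Multiset.mem_add.1 hr).elim (hx r) (hy r)
    have hm : mon (F.π (a + b) (F.i1 a b x * F.i2 a b y)) = mon (F.π a x) + mon (F.π b y) := by
      rw [mon, ht, Multiset.map_add, map_add, mon, mon]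
    have h1 := ip_ch hC hM F hh _ ho
    rw [hm, ht, Multiset.card_add, pow_add 2, ← F.τ_sq a x hx, ← F.τ_sq b y hy,
      F.τ_mul a b x y (((hC F a).2.2.2 x).1 hx) (((hC F b).2.2.2 y).1 hy), ip_monomial] at h1
    have nz : ∀ (n : ℕ) (w : F.G n), OddT (F.π n w) → F.τ n w ≠ 0 := fun n w hw e => by
      have h3 := F.τ_sq n w hw
      rw [e] at h3
      simp at h3
      exact pow_ne_zero _ two_ne_zero h3.symm
    have n1 := nz a x hx
    have n2 := nz b y hy
    have e1 : (2 : ℂ) ^ a = s2 ^ a * s2 ^ a := by rw [← mul_pow, s2_mul_self]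
    have e2 : (2 : ℂ) ^ b = s2 ^ b * s2 ^ b := by rw [← mul_pow, s2_mul_self]
    have n3 := pow_ne_zero a s2_ne
    have n4 := pow_ne_zero b s2_ne
    rw [MvPolynomial.monomial_mul, ip_monomial', h1, e1, e2, pow_add]
    field_simp
  have sub : ∀ (n : ℕ) (φ : F.G n → ℂ), (∀ x, Perm.sign (F.π n x) = 1 → ¬ OddT (F.π n x) → φ x = 0) →
      ∑ x ∈ univ.filter (fun x => Perm.sign (F.π n x) = 1), φ x =
        ∑ x ∈ univ.filter (fun x => OddT (F.π n x)), φ x := by
    intro n φ hφ
    refine (sum_subset (fun x hx => ?_) fun x hx hx' => ?_).symm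
    · exact mem_filter.2 ⟨mem_univ _, ((hC F n).2.2.2 x).1 (mem_filter.1 hx).2⟩
    · exact hφ x (mem_filter.1 hx).2 fun e => hx' (mem_filter.2 ⟨mem_univ _, e⟩)
  rw [SpinFam.rr, sub a _ fun x h1 h2 => by simp [spin_zero hC F hf h1 h2],
    sum_congr rfl fun x _ => sub b _ fun y h1 h2 => by simp [spin_zero hC F hg h1 h2]]
  generalize hR : F.ch h = R at key
  unfold SpinFam.ch
  rw [smul_mul_smul_comm, sum_mul_sum, map_smul, LinearMap.smul_apply, map_sum,
    LinearMap.sum_apply, smul_eq_mul, mul_sum, mul_sum]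
  refine sum_congr (by congr) fun x hx => ?_
  rw [map_sum, LinearMap.sum_apply, mul_sum, mul_sum]
  refine sum_congr (by congr) fun y hy => ?_
  rw [← key x y (mem_filter.1 hx).2 (mem_filter.1 hy).2]
  ring

end Cfsg.Agent.H72.RbVal
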