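import Cfsg.Agent.H74.RuDefs

/-! # Project RU, piece BRU: the torus in `B ∩ g B g⁻¹` -/

set_option autoImplicit false

namespace Cfsg.Agent.H72.RuBru

open Cfsg Module Cfsg.Agent.H31 Cfsg.Agent.H74.Ru

theorem Fl_map {F V : Type} [Field F] [AddCommGroup V] [Module F V] {n : ℕ} (v : Fin n → V)
    (g : V ≃ₗ[F] V) (i : ℕ) : Fl F (fun j => g (v j)) i = (Fl F v i).map g.toLinearMap := by
  rw [Fl, Fl, Submodule.map_span, Set.image_image]
  rfl

theorem bru (ka : KaStmt) (kb : KbStmt) (cf : CfStmt) : BruStmt := by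
  intro F V _ _ _ _ _ S v hv g hg
  obtain ⟨c, π, hc, hπ, h1, h2⟩ := cf S v _ hv ((ka S v hv).2.2.2.1 g hg.1)
  refine ⟨π, hπ, fun t ht => ?_⟩
  obtain ⟨h, hh, h3⟩ := (kb S c hc).2.1 t ht
  have tri := (ka S v hv).2.2.2.2.2.2.2.2
  refine ⟨h, hh, tri c hc h1 h t fun i => by rw [h3, sub_self]; exact zero_mem _, ?_⟩
  have hp : S.Fr fun j => c (π j) := fun i j => by
    rw [hc, ← hπ]
    simp only [EmbeddingLike.apply_eq_iff_eq]
  refine tri _ ((ka S _ hp).2.2.2.1 g⁻¹ (inv_mem hg).1) (fun i => ?_) _ _ fun i => ?_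
  · rw [Fl_map (fun j => c (π j)), h2, ← Fl_map]
    simp
  · simp [h3]

end Cfsg.Agent.H72.RuBru
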