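import Cfsg.Agent.H58.SWDefs

/-! Project SW: subgroups of extraspecial type. -/

set_option autoImplicit false
open Matrix Cfsg
open scoped commutatorElement

namespace Cfsg.Agent.H72.SwExt

open Cfsg.Agent.H58.SW

section grp
variable {G : Type*} [Group G]

theorem cm_mul {g a b : G} (h : Commute ⁅g, b⁆ a) : ⁅g, a * b⁆ = ⁅g, a⁆ * ⁅g, b⁆ := by
  calc ⁅g, a * b⁆ = ⁅g, a⁆ * (a * ⁅g, b⁆) * a⁻¹ := by simp only [commutatorElement_def]; group
    _ = _ := by rw [← h.eq]; group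

theorem cm_pow {g a : G} (h : Commute ⁅g, a⁆ a) (k : ℕ) : ⁅g, a ^ k⁆ = ⁅g, a⁆ ^ k := by
  induction k with
  | zero => simp
  | succ k ih => rw [pow_succ, cm_mul (h.pow_right k), ih, pow_succ]

theorem mul_pow_cm {x y : G} (h : ∀ w, Commute ⁅y, x⁆ w) (k : ℕ) :
    (x * y) ^ k = x ^ k * y ^ k * ⁅y, x⁆ ^ k.choose 2 := by
  induction k with
  | zero => simp
  | succ k ih =>
    have a : ⁅x, y ^ k⁆ = ⁅y, x⁆⁻¹ ^ k := by
      rw [commutatorElement_inv]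
      exact cm_pow (by simpa using (h y).inv_left) k
    have b : y ^ k * x = x * y ^ k * ⁅y, x⁆ ^ k := by
      have : x * y ^ k = ⁅y, x⁆⁻¹ ^ k * (y ^ k * x) := by
        rw [← a, commutatorElement_def]; group
      rw [← ((h _).pow_left k).eq, this, inv_pow, mul_inv_cancel_left]
    rw [pow_succ, ih, Nat.choose_succ_succ' k 1, Nat.choose_one_right, pow_add, mul_assoc,
      ((h _).pow_left _).eq]
    calc _ = x ^ k * (y ^ k * x) * y * ⁅y, x⁆ ^ k.choose 2 := by group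
      _ = x ^ k * x * y ^ k * (⁅y, x⁆ ^ k * y) * ⁅y, x⁆ ^ k.choose 2 := by rw [b]; group
      _ = _ := by rw [((h y).pow_left k).eq, pow_succ, pow_succ]; group

variable {Z A : Subgroup G} {r : ℕ} (hc : ∀ z ∈ Z, ∀ x, Commute z x)
include hc

theorem cm_r {g a : G} (h : ⁅g, a⁆ ∈ Z) (ha : a ^ r ∈ Z) : ⁅g, a⁆ ^ r = 1 := by
  rw [← cm_pow (hc _ h a), commutatorElement_eq_one_iff_commute]
  exact (hc _ ha g).symm

/-- the power map modulo `r`-th powers of `Z` -/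
theorem pw_mul [Finite G] (hr : r.Prime) (cy : IsCyclic Z) (h4 : r ≠ 2 ∨ 4 ∣ Nat.card Z)
    {x y w w' : G} (h : ⁅y, x⁆ ∈ Z) (hx : x ^ r ∈ Z) (hw' : w' ∈ Z)
    (h1 : ∃ z ∈ Z, x ^ r = w * z ^ r) (h2 : ∃ z ∈ Z, y ^ r = w' * z ^ r) :
    ∃ z ∈ Z, (x * y) ^ r = w * w' * z ^ r := by
  obtain ⟨a, ha, e1⟩ := h1
  obtain ⟨b, hb, e2⟩ := h2
  have c1 := cm_r hc h hx
  obtain ⟨d, hd, e3⟩ : ∃ d ∈ Z, ⁅y, x⁆ ^ r.choose 2 = d ^ r := by
    by_cases h2 : r = 2
    · subst h2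
      obtain ⟨ζ, hζ⟩ := IsCyclic.exists_monoid_generator (α := Z)
      obtain ⟨i, hi⟩ := hζ ⟨_, h⟩
      have o : orderOf ζ = Nat.card Z :=
        orderOf_eq_card_of_forall_mem_zpowers fun x => Submonoid.powers_le_zpowers _ (hζ x)
      have : orderOf ζ ∣ i * 2 := orderOf_dvd_of_pow_eq_one (by
        rw [pow_mul, show ζ ^ i = _ from hi]
        exact Subtype.ext c1)
      obtain ⟨j, rfl⟩ : 2 ∣ i := by
        have := (h4.resolve_left (not_not.2 rfl)).trans (o ▸ this)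
        omega
      refine ⟨_, (ζ ^ j).2, ?_⟩
      rw [Nat.choose_self, pow_one, ← Subgroup.coe_pow, ← pow_mul, mul_comm]
      exact (congrArg Subtype.val hi).symm
    · obtain ⟨m, e⟩ := hr.dvd_choose_self two_ne_zero (lt_of_le_of_ne hr.two_le (Ne.symm h2))
      exact ⟨1, Z.one_mem, by rw [e, pow_mul, c1, one_pow, one_pow]⟩
  refine ⟨a * b * d, mul_mem (mul_mem ha hb) hd, ?_⟩
  rw [mul_pow_cm (hc _ h), e1, e2, e3, (hc _ hd _).symm.mul_pow, (hc _ ha b).mul_pow]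
  calc _ = w * (a ^ r * w') * b ^ r * d ^ r := by group
    _ = _ := by rw [← (hc _ hw' _).eq]; group

theorem dual [Finite G] (cy : IsCyclic Z) (cm : ∀ x ∈ A, ∀ y ∈ A, ⁅x, y⁆ ∈ Z)
    (nd : ∀ x ∈ A, x ∉ Z → ∃ y ∈ A, ¬ Commute x y) {g : G} (hg : ∀ a ∈ A, ⁅g, a⁆ ∈ Z) :
    ∃ x ∈ A, ∀ a ∈ A, Commute (x⁻¹ * g) a := by
  have : NeZero (Nat.card Z) := ⟨Nat.card_pos.ne'⟩
  let e : Z ≃* rootsOfUnity (Nat.card Z) ℂ := mulEquivOfCyclicCardEq
    (Complex.card_rootsOfUnity _).symm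
  have hn : (Z.subgroupOf A).Normal := ⟨fun z hz a => by
    change (a : G) * z * (a : G)⁻¹ ∈ Z
    rwa [← (hc (z : G) hz _).eq, mul_inv_cancel_right]⟩
  let _ : CommGroup (A ⧸ Z.subgroupOf A) :=
    { (inferInstance : Group (A ⧸ Z.subgroupOf A)) with
      mul_comm := fun a b => by
        obtain ⟨a, rfl⟩ := QuotientGroup.mk_surjective a
        obtain ⟨b, rfl⟩ := QuotientGroup.mk_surjective b
        refine QuotientGroup.eq.2 ?_
        change ((a : G) * b)⁻¹ * (b * a) ∈ Z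
        convert cm _ (inv_mem b.2) _ (inv_mem a.2) using 1
        rw [commutatorElement_def]
        group }
  let β : ∀ g : G, (∀ a ∈ A, ⁅g, a⁆ ∈ Z) → (A →* Z) := fun g hg => MonoidHom.mk'
    (fun a => ⟨⁅g, (a : G)⁆, hg a a.2⟩) fun a b => Subtype.ext (cm_mul (hc _ (hg b b.2) _))
  let γ : ∀ g : G, (∀ a ∈ A, ⁅g, a⁆ ∈ Z) → (A ⧸ Z.subgroupOf A →* ℂˣ) := fun g hg =>
    ((rootsOfUnity _ ℂ).subtype.comp e.toMonoidHom).comp
      (QuotientGroup.lift (Z.subgroupOf A) (β g hg) fun z hz =>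
        Subtype.ext (commutatorElement_eq_one_iff_commute.2 (hc _ hz g).symm))
  have key : ∀ g hg g' hg', γ g hg = γ g' hg' → ∀ a ∈ A, Commute (g⁻¹ * g') a :=
    fun g hg g' hg' h a ha => by
      have h0 : e (β g hg ⟨a, ha⟩) = e (β g' hg' ⟨a, ha⟩) :=
        Subtype.ext (DFunLike.congr_fun h (QuotientGroup.mk (⟨a, ha⟩ : A)) :)
      have : ⁅g, a⁆ = ⁅g', a⁆ := congrArg Subtype.val (e.injective h0)
      calc g⁻¹ * g' * a = g⁻¹ * ⁅g', a⁆ * a * g' := by rw [commutatorElement_def]; group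
        _ = a * (g⁻¹ * g') := by rw [← this, commutatorElement_def]; group
  have inj : Function.Injective fun q : A ⧸ Z.subgroupOf A => γ q.out (cm _ q.out.2) :=
    fun q q' h => by
      rw [← q.out_eq, ← q'.out_eq]
      refine QuotientGroup.eq.2 (by_contra fun c => ?_)
      obtain ⟨y, hy, n⟩ := nd _ (q.out⁻¹ * q'.out).2 c
      exact n (key _ _ _ _ h y hy)
  have : NeZero ((Monoid.exponent (A ⧸ Z.subgroupOf A) : ℕ) : ℂ) :=
    ⟨Nat.cast_ne_zero.2 Monoid.exponent_ne_zero_of_finite⟩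
  have cd := CommGroup.card_monoidHom_of_hasEnoughRootsOfUnity (A ⧸ Z.subgroupOf A) ℂ
  have : Finite (A ⧸ Z.subgroupOf A →* ℂˣ) := Nat.finite_of_card_ne_zero (cd ▸ Nat.card_pos.ne')
  obtain ⟨q, hq⟩ := (inj.bijective_of_nat_card_le cd.le).2 (γ g hg)
  exact ⟨_, q.out.2, key _ _ _ _ hq⟩

theorem sq_le [Finite G] (hr : r.Prime) (pw : ∀ x ∈ A, x ^ r ∈ Z) {x y : G} (hx : x ∈ A)
    (hy : y ∈ A) (n : ¬ Commute x y) : r ^ 2 ≤ Z.relIndex A := by
  have : Fact r.Prime := ⟨hr⟩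
  have hn : (Z.subgroupOf A).Normal := ⟨fun z hz a => by
    change (a : G) * z * (a : G)⁻¹ ∈ Z
    rwa [← (hc (z : G) hz _).eq, mul_inv_cancel_right]⟩
  have p : IsPGroup r (A ⧸ Z.subgroupOf A) := fun q => by
    obtain ⟨a, rfl⟩ := QuotientGroup.mk_surjective q
    exact ⟨1, by rw [pow_one, ← QuotientGroup.mk_pow, QuotientGroup.eq_one_iff]; exact pw a a.2⟩
  obtain ⟨k, hk⟩ := IsPGroup.iff_card.1 p
  change r ^ 2 ≤ Nat.card (A ⧸ Z.subgroupOf A)
  rw [hk]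
  refine Nat.pow_le_pow_right hr.pos (by_contra fun c => n ?_)
  have : IsCyclic (A ⧸ Z.subgroupOf A) := isCyclic_of_card_dvd_prime (p := r) (by
    rw [hk]
    exact (pow_dvd_pow r (by omega : k ≤ 1)).trans (pow_one r).dvd)
  exact congrArg Subtype.val (commutative_of_cyclic_center_quotient
    (QuotientGroup.mk' (Z.subgroupOf A)) (fun z hz => Subgroup.mem_center_iff.2 fun a =>
      Subtype.ext (hc _ ((QuotientGroup.eq_one_iff z).1 hz) a).symm.eq) ⟨x, hx⟩ ⟨y, hy⟩)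

omit hc in
theorem mem_powers [Finite G] (hr : r.Prime) (cy : IsCyclic Z) {c z : G} (hc : c ∈ Z) (c1 : c ≠ 1)
    (cr : c ^ r = 1) (hz : z ∈ Z) (zr : z ^ r = 1) : ∃ k : ℕ, c ^ k = z := by
  classical
  have : Fact r.Prime := ⟨hr⟩
  have := Fintype.ofFinite Z
  have o : orderOf (⟨c, hc⟩ : Z) = r :=
    orderOf_eq_prime (Subtype.ext cr) fun e => c1 (congrArg Subtype.val e)
  have e : (Finset.range r).image ((⟨c, hc⟩ : Z) ^ ·) = Finset.univ.filter fun a : Z => a ^ r = 1 :=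
    Finset.eq_of_subset_of_card_le (fun a ha => by
      obtain ⟨k, -, rfl⟩ := Finset.mem_image.1 ha
      refine Finset.mem_filter.2 ⟨Finset.mem_univ _, ?_⟩
      rw [← pow_mul, mul_comm, pow_mul, ← o, pow_orderOf_eq_one, one_pow])
      ((IsCyclic.card_pow_eq_one_le hr.pos).trans (by
        rw [Finset.card_image_of_injOn, Finset.card_range]
        rw [← o, Finset.coe_range]
        exact pow_injOn_Iio_orderOf))
  obtain ⟨k, -, h⟩ := Finset.mem_image.1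
    (e.ge (Finset.mem_filter.2 ⟨Finset.mem_univ (⟨z, hz⟩ : Z), Subtype.ext zr⟩))
  exact ⟨k, congrArg Subtype.val h⟩

end grp

theorem ext1 (hKA : KAStmt) (hKT : KTStmt) : Ext1Stmt := by
  intro F _ _ _ n c r H Q l A m nab
  have ka := hKA F n c
  have kt := hKT F n c
  have cm : ∀ x ∈ A, ∀ y ∈ A, ⁅x, y⁆ ∈ c.Z := fun x hx y hy => m.cen y hy x (m.le hx)
  refine ⟨⟨m.zlt, m.le.trans (l.qh.trans inf_le_left), cm, m.pw, fun x hx nx => ?_⟩, fun h4 => ?_⟩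
  · by_contra! h
    have := m.min (A ⊓ Subgroup.centralizer A) (lt_of_le_of_ne
      (le_inf m.zlt.le fun z hz y _ => (ka.zcomm z hz y).symm.eq)
      fun e => nx (e ▸ ⟨hx, fun y hy => (h y hy).symm.eq⟩)) inf_le_left fun ψ hψ y hy =>
        ⟨m.inv ψ hψ y hy.1, fun a ha => by
          have := congrArg ψ (hy.2 _ (m.inv _ (inv_mem hψ) a ha))
          rwa [map_mul, map_mul, MulAut.apply_inv_self] at this⟩
    exact nab fun x hx y hy => (this.ge hy).2 x hx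
  · have mul := fun {x y w w' : Gl n F} (hx : x ∈ A) (hy : y ∈ A) (hw' : w' ∈ c.Z) =>
      pw_mul (w := w) ka.zcomm l.prime ka.cyc (ka.card_Z ▸ h4) (cm y hy x hx) (m.pw x hx) hw'
    let B : Subgroup (Gl n F) :=
      { carrier := {x | x ∈ A ∧ ∃ z ∈ c.Z, x ^ r = 1 * z ^ r}
        one_mem' := ⟨A.one_mem, 1, one_mem _, by rw [one_mul]⟩
        mul_mem' := fun ha hb => ⟨mul_mem ha.1 hb.1, by
          simpa only [one_mul] using mul ha.1 hb.1 (one_mem _) ha.2 hb.2⟩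
        inv_mem' := by
          rintro a ⟨ha, z, hz, e⟩
          exact ⟨inv_mem ha, z⁻¹, inv_mem hz, by rw [inv_pow, e, one_mul, one_mul, inv_pow]⟩ }
    have zb : c.Z ≤ B := fun z hz => ⟨m.zlt.le hz, z, hz, (one_mul _).symm⟩
    rcases zb.eq_or_lt with e | e
    · refine absurd (fun x hx y hy => ?_) nab
      have := ka.cyc
      obtain ⟨ζ, hζ⟩ := IsCyclic.exists_monoid_generator (α := c.Z)
      obtain ⟨i, hi⟩ := hζ ⟨_, m.pw x hx⟩
      obtain ⟨j, hj⟩ := hζ ⟨_, m.pw y hy⟩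
      have hi : x ^ r = (ζ : Gl n F) ^ i := (congrArg Subtype.val hi).symm
      have hj : y ^ r = (ζ : Gl n F) ^ j := (congrArg Subtype.val hj).symm
      have inZ : ∀ a ∈ A, ∀ k, r ∣ k → (∃ z ∈ c.Z, a ^ r = (ζ : Gl n F) ^ k * z ^ r) → a ∈ c.Z := by
        rintro a ha _ ⟨k, rfl⟩ ⟨z, hz, h⟩
        refine e ▸ ⟨ha, ζ ^ k * z, mul_mem (pow_mem ζ.2 _) hz, ?_⟩
        rw [h, one_mul, (ka.zcomm _ hz _).symm.mul_pow, ← pow_mul, mul_comm k]
      by_cases d : r ∣ i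
      · exact ka.zcomm _ (inZ x hx i d ⟨1, one_mem _, by rw [hi, one_pow, mul_one]⟩) y
      obtain ⟨k, hk⟩ : ∃ k, r ∣ i * k + j := by
        have : Fact r.Prime := ⟨l.prime⟩
        refine ⟨((i : ZMod r)⁻¹ * -j).val, (ZMod.natCast_eq_zero_iff _ _).1 ?_⟩
        rw [Nat.cast_add, Nat.cast_mul, ZMod.natCast_zmod_val,
          mul_inv_cancel_left₀ (mt (ZMod.natCast_eq_zero_iff _ _).1 d), neg_add_cancel]
      have := inZ _ (mul_mem (pow_mem hx k) hy) _ hk (by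
        rw [pow_add]
        exact mul (pow_mem hx k) hy (pow_mem ζ.2 _)
          ⟨1, one_mem _, by rw [← pow_mul, mul_comm, pow_mul, hi, ← pow_mul, one_pow, mul_one]⟩
          ⟨1, one_mem _, by rw [hj, one_pow, mul_one]⟩)
      simpa using ((Commute.refl x).pow_right k).inv_right.mul_right (ka.zcomm _ this x).symm
    · have := m.min B e (fun _ h => h.1) (by
        rintro ψ hψ y ⟨hy, z, hz, h⟩
        exact ⟨m.inv ψ hψ y hy, ψ z, (kt.pres ψ (l.std ψ hψ) z).2.2.2 hz, by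
          rw [← map_pow, h, one_mul, one_mul, map_pow]⟩)
      intro x hx
      obtain ⟨-, z, hz, h⟩ : x ∈ B := this ▸ hx
      exact ⟨z⁻¹, inv_mem hz, by
        rw [(ka.zcomm _ (inv_mem hz) x).symm.mul_pow, h, one_mul, inv_pow, mul_inv_cancel]⟩

theorem ext2 (hKA : KAStmt) : Ext2Stmt := by
  intro F _ _ _ n c r A hr h
  have ka := hKA F n c
  have : Fact r.Prime := ⟨hr⟩
  have cr : ∀ x ∈ A, ∀ y ∈ A, ⁅x, y⁆ ^ r = 1 := fun x hx y hy =>
    cm_r ka.zcomm (h.cm x hx y hy) (h.pw y hy)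
  obtain ⟨x, hx, nx⟩ := SetLike.exists_of_lt h.zlt
  obtain ⟨y, hy, ny⟩ := h.nd x hx nx
  refine ⟨fun g _ hg => dual ka.zcomm ka.cyc h.cm h.nd hg, ?_, cr, fun x hx nx z hz zr => ?_,
    sq_le ka.zcomm hr h.pw hx hy ny⟩
  · rw [← ka.card_Z, ← orderOf_eq_prime (cr x hx y hy)
      (mt commutatorElement_eq_one_iff_commute.1 ny)]
    exact c.Z.orderOf_dvd_natCard (h.cm x hx y hy)
  · obtain ⟨y, hy, ny⟩ := h.nd x hx nx
    obtain ⟨k, e⟩ := mem_powers hr ka.cyc (h.cm x hx y hy)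
      (mt commutatorElement_eq_one_iff_commute.1 ny) (cr x hx y hy) (inv_mem hz)
      (by rw [inv_pow, zr, inv_one])
    refine ⟨y ^ k, pow_mem hy k, ?_⟩
    rw [← commutatorElement_inv, cm_pow (ka.zcomm _ (h.cm x hx y hy) _), e, inv_inv]

end Cfsg.Agent.H72.SwExt
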