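import Cfsg.Agent.H86.SwUniqU

/-! Project SW: an outer automorphism cannot centralise a parabolic subgroup. -/

set_option autoImplicit false
open Matrix Cfsg
open scoped commutatorElement

namespace Cfsg.Agent.H72.SwParE

open Cfsg.Agent.H58.SW

theorem vv_ap {F : Type} [Field F] {n : ℕ} (v f w : Vc n F) :
    vecMulVec v f *ᵥ w = (f ⬝ᵥ w) • v := by
  ext i
  simp [mulVec, dotProduct, vecMulVec_apply, Finset.mul_sum, mul_comm, mul_left_comm]

theorem parEL (hKA : KAStmt) (hKT : KTStmt) (hKV : KVStmt) (hD : DelKStmt) : ParELStmt := by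
  intro F _ _ _ n c r H Q l hu Y Y' δ fl d
  have ka := hKA F n c
  have kt := hKT F n c
  have kv := hKV F n c
  obtain ⟨t, hind⟩ := l.std δ d.dH
  obtain ⟨-, -, hσ, -, hfix, -⟩ := hD F n c r H δ t l.prime d hind
  have key : ∀ v ∈ Y, ∀ f : Vc n F, (∀ w ∈ Y, f ⬝ᵥ w = 0) →
      t.ap (vecMulVec v f) = if t.neg = true then -vecMulVec v f else vecMulVec v f := by
    intro v hv f hf
    have sq : vecMulVec v f * vecMulVec v f = 0 := by
      rw [vecMulVec_mul_vecMulVec, hf v hv, zero_smul, vecMulVec_zero]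
    obtain ⟨g, e, dt, un⟩ := kv.nil (vecMulVec v f) ⟨2, by rw [pow_two, sq]⟩
    have ap : ∀ w, (g : Mt n F) *ᵥ w = w + (f ⬝ᵥ w) • v := fun w => by
      rw [e, add_mulVec, one_mulVec, vv_ap]
    have h1 := hind.2.2 g
    rw [hfix g (fl.mem g ((ka.mem_S g).2 ⟨(ka.mem_St g).2 fun h => by simp [hu] at h, dt⟩)
      (fun w hw => by rw [ap]; exact Y.add_mem hw (Y.smul_mem _ hv))
      fun w hw => by rw [ap]; exact Y'.add_mem hw (Y'.smul_mem _ (fl.le hv))) un] at h1
    split_ifs at h1 ⊢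
    · have e' : ((g⁻¹ : Gl n F) : Mt n F) = 1 - vecMulVec v f :=
        Units.inv_eq_of_mul_eq_one_right (by
          rw [e, mul_sub, mul_one, add_mul, one_mul, sq, add_zero, add_sub_cancel_right])
      rw [e', kt.sub, kt.one, e, sub_eq_add_neg, add_right_inj] at h1
      exact (neg_eq_iff_eq_neg.1 h1.symm)
    · rw [e, kt.add, kt.one, add_right_inj] at h1
      exact h1.symm
  obtain ⟨v, hv, v0⟩ := Submodule.exists_mem_ne_zero_of_ne_bot fl.nb
  obtain ⟨f, f0, hf⟩ : ∃ f : Vc n F, f ≠ 0 ∧ ∀ w ∈ Y, f ⬝ᵥ w = 0 := by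
    obtain ⟨φ, h0, h1⟩ := Y.exists_le_ker_of_lt_top (fl.le.trans_lt fl.nt.lt_top)
    obtain ⟨f, rfl⟩ := (dotProductEquiv F (Fin n)).surjective φ
    exact ⟨f, fun e => h0 (by rw [e, map_zero]), fun w hw => h1 hw⟩
  obtain ⟨j, hj⟩ := Function.ne_iff.1 f0
  cases hb : t.neg
  · obtain ⟨i, hi⟩ := Function.ne_iff.1 v0
    refine hσ hb (RingEquiv.ext fun a => ?_)
    have h1 := key v hv f hf
    have h2 := key _ (Y.smul_mem a hv) f hf
    simp only [hb, Bool.false_eq_true, if_false] at h1 h2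
    rw [smul_vecMulVec, kt.smul, h1] at h2
    exact mul_right_cancel₀ (mul_ne_zero hi hj) (congrFun (congrFun h2 i) j)
  have a0 : t.av 0 = 0 := by simpa using kt.av_smul t 0 0
  have line : ∀ v ∈ Y, v ≠ 0 → ∀ f : Vc n F, f ≠ 0 → (∀ w ∈ Y, f ⬝ᵥ w = 0) →
      ∃ k : F, k ≠ 0 ∧ t.av f = k • v := fun v hv v0 f f0 hf => by
    have h1 := key v hv f hf
    have e : ((vecMulVec v f).map t.σ)ᵀ = vecMulVec (fun i => t.σ (f i)) fun i => t.σ (v i) := by
      ext i j
      simp [vecMulVec_apply, mul_comm]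
    rw [Tau.ap, if_pos hb, if_pos hb, e, mul_vecMulVec, vecMulVec_mul] at h1
    obtain ⟨i, hi⟩ := Function.ne_iff.1 v0
    obtain ⟨j, hj⟩ := Function.ne_iff.1 f0
    have h2 : ∀ i, t.av f i * ((fun i => t.σ (v i)) ᵥ* ((t.A⁻¹ : Gl n F) : Mt n F)) j =
        -(v i * f j) := fun i => congrFun (congrFun h1 i) j
    generalize ((fun i => t.σ (v i)) ᵥ* ((t.A⁻¹ : Gl n F) : Mt n F)) j = u at h2
    have u0 : u ≠ 0 := fun e => neg_ne_zero.2 (mul_ne_zero hi hj) (by rw [← h2, e, mul_zero])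
    refine ⟨-f j / u, div_ne_zero (neg_ne_zero.2 hj) u0, funext fun i => ?_⟩
    rw [Pi.smul_apply, smul_eq_mul, div_mul_eq_mul_div, eq_div_iff u0, h2]
    ring
  obtain ⟨k, k0, hk⟩ := line v hv v0 f f0 hf
  let φ : Vc n F →ₗ[F] F × F := ((dotProductEquiv F (Fin n) v).prod (LinearMap.proj j))
  obtain ⟨g, hg, g0⟩ := Submodule.exists_mem_ne_zero_of_ne_bot
    (LinearMap.ker_ne_bot_of_finrank_lt (f := φ) (by
      have := (hind.2.1 hb).2
      simp
      omega))
  have g1 : v ⬝ᵥ g = 0 := congrArg Prod.fst hg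
  have g2 : g j = 0 := congrArg Prod.snd hg
  obtain ⟨k', k0', hk'⟩ := line v hv v0 g g0 fun w hw => by
    by_cases w0 : w = 0
    · rw [w0, dotProduct_zero]
    obtain ⟨m, m0, hm⟩ := line w hw w0 f f0 hf
    refine (mul_eq_zero.1 ?_).resolve_left m0
    rw [← smul_eq_mul, ← dotProduct_smul, ← hm, hk, dotProduct_smul, dotProduct_comm, g1, smul_zero]
  have e : g = t.σ.symm (k' / k) • f := (kt.av_bij t).1 (by
    rw [kt.av_smul, RingEquiv.apply_symm_apply, hk, hk', smul_smul, div_mul_cancel₀ _ k0])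
  rw [e, Pi.smul_apply, smul_eq_mul] at g2
  exact g0 (by rw [e, (mul_eq_zero.1 g2).resolve_right hj, zero_smul])

theorem parEU (hKA : KAStmt) (hKT : KTStmt) (hKV : KVStmt) (hD : DelKStmt) : ParEUStmt := by
  intro F _ _ _ n c r H Q l hu Y Y' δ fl d
  have ka := hKA F n c
  have kt := hKT F n c
  have kv := hKV F n c
  obtain ⟨t, hind⟩ := l.std δ d.dH
  obtain ⟨-, -, hσ, -, hfix, -⟩ := hD F n c r H δ t l.prime d hind
  have hneg : t.neg = false := by
    cases hb : t.neg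
    · rfl
    · have := (hind.2.1 hb).1
      rw [hu] at this
      exact absurd this (by decide)
  obtain ⟨y, hy, hy0⟩ := Submodule.exists_mem_ne_zero_of_ne_bot fl.nb
  have py : ∀ v ∈ Y', c.hf v y = 0 := fun v hv => (fl.uni hu v).1 hv y hy
  have hyy := py y (fl.le hy)
  have hap : ∀ s ∈ c.S, Unip s → (∀ v, c.hf v y = 0 → ∃ a : F, (s : Mt n F) *ᵥ v = v + a • y) →
      t.ap (s : Mt n F) = (s : Mt n F) := by
    intro s hs un h
    have := hind.2.2 s
    rw [hfix s (fl.mem s hs (fun v hv => by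
        obtain ⟨a, e⟩ := h v (py v (fl.le hv))
        rw [e]; exact Y.add_mem hv (Y.smul_mem _ hy)) fun v hv => by
        obtain ⟨a, e⟩ := h v (py v hv)
        rw [e]; exact Y'.add_mem hv (Y'.smul_mem _ (fl.le hy))) un, hneg] at this
    simpa using this.symm
  obtain ⟨a, ha, ha0⟩ : ∃ a : F, a ^ c.q = -a ∧ a ≠ 0 := by
    by_contra! hc
    have h1 := ka.tz hu
    have h2 := ka.two_le
    have : Subsingleton {a : F // a ^ c.q = -a} :=
      ⟨fun a b => Subtype.ext ((hc _ a.2).trans (hc _ b.2).symm)⟩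
    have h3 := Finite.card_le_one_iff_subsingleton.2 this
    omega
  obtain ⟨k, hk⟩ : ∃ k : F, t.av y = k • y := by
    obtain ⟨g, hg, un, hge⟩ := kv.tvU hu y a hyy ha
    have h1 := hap g hg un fun v hv => ⟨0, by
      rw [hge, add_mulVec, one_mulVec, smul_mulVec, ka.vec_ap, hv, zero_smul, smul_zero]⟩
    rw [hge, kt.add, kt.one, kt.smul, kt.stv t δ hind hu] at h1
    obtain ⟨x, hx⟩ : ∃ x, c.hf x y ≠ 0 := by
      by_contra! h
      exact hy0 (ka.hf_nd y h)
    have h3 := congrArg (fun m : Mt n F => m *ᵥ x) (add_left_cancel h1)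
    simp only [Matrix.smul_mulVec, ka.vec_ap, smul_smul] at h3
    have h4 : t.σ a * c.hf x (t.av y) ≠ 0 := by
      intro h0
      rw [h0, zero_smul] at h3
      exact (smul_eq_zero.1 h3.symm).elim (mul_ne_zero ha0 hx) hy0
    refine ⟨(t.σ a * c.hf x (t.av y))⁻¹ * (a * c.hf x y), ?_⟩
    rw [← smul_smul, ← h3, smul_smul, inv_mul_cancel₀ h4, one_smul]
  obtain ⟨v, w, hvy, hyw, hvw⟩ := H86.SwUniqU.ex_vw c ka hu y hy0
  obtain ⟨θ0, hθ0⟩ := ka.th hu
  have key : ∀ l : F, t.σ l ^ c.q * (c.hf v (t.av w) * k) = l ^ c.q * c.hf v w := by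
    intro l
    have hh : c.hf (l • w) (l • w) ^ c.q = c.hf (l • w) (l • w) := (ka.hf_symm hu _ _).symm
    obtain ⟨g, hg, un, hge⟩ := kv.eich hu y (l • w) (θ0 * c.hf (l • w) (l • w)) hyy
      (by rw [ka.hf_smul', hyw, mul_zero]) (by rw [mul_pow, hh, ← add_mul, hθ0, one_mul])
    have h1 := hap g hg un fun x hx => ⟨c.hf x (l • w), by
      simp only [hge, sub_mulVec, add_mulVec, one_mulVec, smul_mulVec, ka.vec_ap, hx, zero_smul,
        smul_zero, sub_zero]⟩
    rw [hge, kt.sub, kt.sub, kt.add, kt.one, kt.smul, kt.stv t δ hind hu, kt.stv t δ hind hu,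
      kt.stv t δ hind hu] at h1
    have h3 := congrArg (fun m : Mt n F => m *ᵥ v) h1
    have hvk : c.hf v (t.av y) = 0 := by rw [hk, ka.hf_smul', hvy, mul_zero]
    simp only [Matrix.sub_mulVec, Matrix.add_mulVec, Matrix.smul_mulVec, ka.vec_ap, hvk, hvy,
      zero_smul, smul_zero, sub_zero, add_right_inj] at h3
    rw [kt.av_smul, ka.hf_smul', ka.hf_smul', hk, smul_smul] at h3
    rw [← smul_left_injective F hy0 h3]
    ring
  refine hσ hneg (RingEquiv.ext fun l => ?_)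
  have h1 := key 1
  rw [map_one, one_pow, one_mul, one_mul] at h1
  have h2 := key l
  rw [h1] at h2
  have h4 := congrArg (fun z : F => z ^ c.q) (mul_right_cancel₀ hvw h2)
  simp only [ka.fr_fr hu] at h4
  exact h4

end Cfsg.Agent.H72.SwParE
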